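/-
For a `p`-group `P` acting on a group `N` of order prime to `p`:
`(∏_{x ∈ P} |C_N(x)|) ^ p` divides `|N| ^ |P| * |C_N(P)| ^ ((p - 1) |P|)`.
-/
import Mathlib
import Cfsg.Agent.Lib.CoprimeAction.Sylow
import Cfsg.Agent.Lib.CoprimeAction.Aut

set_option autoImplicit false
set_option linter.style.haveILetI false

open scoped Pointwise

namespace CfsgLib.Subnormal

universe u v

variable {P : Type u} [Group P]

/-- Fixed points of a single element. -/
def fixSub {K : Type v} [Group K] (φ : P →* MulAut K) (x : P) : Subgroup K where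
  carrier := {v | φ x v = v}
  one_mem' := map_one _
  mul_mem' {a b} (ha : φ x a = a) (hb : φ x b = b) := show φ x (a * b) = a * b by rw [map_mul, ha, hb]
  inv_mem' {a} (ha : φ x a = a) := show φ x a⁻¹ = a⁻¹ by rw [map_inv, ha]

/-- Fixed points of the whole group. -/
def fixAll {K : Type v} [Group K] (φ : P →* MulAut K) : Subgroup K := ⨅ x, fixSub φ x

@[simp] theorem mem_fixSub {K : Type v} [Group K] {φ : P →* MulAut K} {x : P} {v : K} :
    v ∈ fixSub φ x ↔ φ x v = v := Iff.rfl

@[simp] theorem mem_fixAll {K : Type v} [Group K] {φ : P →* MulAut K} {v : K} :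
    v ∈ fixAll φ ↔ ∀ x, φ x v = v := by simp [fixAll, Subgroup.mem_iInf]

/-- The elements fixing a point. -/
def fixers {K : Type v} [Group K] (φ : P →* MulAut K) (v : K) : Subgroup P where
  carrier := {x | φ x v = v}
  one_mem' := show φ 1 v = v by rw [map_one, MulAut.one_apply]
  mul_mem' {a b} (ha : φ a v = v) (hb : φ b v = v) :=
    show φ (a * b) v = v by rw [map_mul, MulAut.mul_apply, hb, ha]
  inv_mem' {a} (ha : φ a v = v) := show φ a⁻¹ v = v by
    conv_lhs => rw [← ha]
    rw [map_inv]; exact MulAut.inv_apply_self K (φ a) v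

/-- The divisibility in question. -/
def FixedProductBound [Fintype P] (p : ℕ) {K : Type v} [Group K] (φ : P →* MulAut K) : Prop :=
  (∏ x : P, Nat.card (fixSub φ x)) ^ p ∣
    Nat.card K ^ Nat.card P * Nat.card (fixAll φ) ^ ((p - 1) * Nat.card P)

/-- The restriction of an action to an invariant subgroup. -/
def restrictAction {K : Type v} [Group K] (φ : P →* MulAut K) (C : Subgroup K)
    (hC : ∀ x : P, ∀ v ∈ C, φ x v ∈ C) : P →* MulAut C where
  toFun x :=
    { toFun := fun v => ⟨φ x v, hC x v v.2⟩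
      invFun := fun v => ⟨φ x⁻¹ v, hC x⁻¹ v v.2⟩
      left_inv := fun v => Subtype.ext (by
        show φ x⁻¹ (φ x v) = v
        rw [map_inv]; exact MulAut.inv_apply_self K (φ x) v)
      right_inv := fun v => Subtype.ext (by
        show φ x (φ x⁻¹ v) = v
        rw [map_inv]; exact MulAut.apply_inv_self K (φ x) v)
      map_mul' := fun a b => Subtype.ext (map_mul (φ x) (a : K) b) }
  map_one' := MulEquiv.ext fun v => Subtype.ext (by show φ 1 v = v; rw [map_one, MulAut.one_apply])
  map_mul' x y := MulEquiv.ext fun v => Subtype.ext (by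
    show φ (x * y) v = φ x (φ y v)
    rw [map_mul, MulAut.mul_apply])

theorem card_subgroupOf_eq {K : Type v} [Group K] (F C : Subgroup K) :
    Nat.card (F.subgroupOf C) = Nat.card ↥(F ⊓ C) := by
  rw [← Subgroup.inf_subgroupOf_right]
  exact Nat.card_congr (Subgroup.subgroupOfEquivOfLe inf_le_right).toEquiv

theorem fixSub_restrict {K : Type v} [Group K] (φ : P →* MulAut K) (C : Subgroup K)
    (hC : ∀ x : P, ∀ v ∈ C, φ x v ∈ C) (x : P) :
    fixSub (restrictAction φ C hC) x = (fixSub φ x).subgroupOf C := by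
  ext v
  simp only [mem_fixSub, Subgroup.mem_subgroupOf]
  exact Subtype.ext_iff

theorem fixAll_restrict {K : Type v} [Group K] (φ : P →* MulAut K) (C : Subgroup K)
    (hC : ∀ x : P, ∀ v ∈ C, φ x v ∈ C) :
    fixAll (restrictAction φ C hC) = (fixAll φ).subgroupOf C := by
  ext v
  simp only [mem_fixAll, Subgroup.mem_subgroupOf]
  exact forall_congr' fun x => Subtype.ext_iff

variable {p : ℕ} [hp : Fact p.Prime]

theorem prod_range_shift {K : Type v} [CommGroup K] (z : MulAut K) {n : ℕ} (hz : z ^ n = 1)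
    (v : K) : z (∏ i ∈ Finset.range n, (z ^ i) v) = ∏ i ∈ Finset.range n, (z ^ i) v := by
  rw [map_prod]
  have h1 : ∀ i, z ((z ^ i) v) = (z ^ (i + 1)) v := fun i => by rw [pow_succ', MulAut.mul_apply]
  simp only [h1]
  have h2 := Finset.prod_range_succ' (fun i => (z ^ i) v) n
  have h3 := Finset.prod_range_succ (fun i => (z ^ i) v) n
  rw [hz, MulAut.one_apply] at h3
  rw [pow_zero, MulAut.one_apply] at h2
  exact mul_right_cancel (h2.symm.trans h3)

theorem fixedProductBound_comm [Fintype P] (hP : IsPGroup p P) :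
    ∀ {K : Type v} [CommGroup K] [Finite K] (φ : P →* MulAut K), ¬ p ∣ Nat.card K →
      FixedProductBound p φ := by
  suffices main : ∀ n, ∀ {K : Type v} [CommGroup K] [Finite K] (φ : P →* MulAut K),
      Nat.card K = n → ¬ p ∣ Nat.card K → FixedProductBound p φ from
    fun {K} _ _ φ h => main _ φ rfl h
  intro n
  induction n using Nat.strong_induction_on with
  | _ n ih =>
  intro K _ _ φ hn hpK
  by_cases htriv : φ.range = ⊥
  · have hφ : ∀ x v, φ x v = v := fun x v => by
      rw [Subgroup.mem_bot.mp (htriv ▸ ⟨x, rfl⟩ : φ x ∈ (⊥ : Subgroup (MulAut K))), MulAut.one_apply]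
    have h1 : ∀ x, fixSub φ x = ⊤ := fun x => eq_top_iff.mpr fun v _ => hφ x v
    have h2 : fixAll φ = ⊤ := eq_top_iff.mpr fun v _ => mem_fixAll.mpr fun x => hφ x v
    refine dvd_of_eq ?_
    rw [h2, Finset.prod_congr rfl (fun x _ => by rw [h1, Subgroup.card_top]), Subgroup.card_top,
      Finset.prod_const, Finset.card_univ, ← Nat.card_eq_fintype_card, ← pow_mul, ← pow_add]
    congr 1
    have := hp.out.pos
    rw [show p = p - 1 + 1 by omega, Nat.add_sub_cancel, Nat.mul_add, mul_one,
      mul_comm (Nat.card P)]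
    omega
  -- a central element of order `p` of the image
  have hR : IsPGroup p φ.range := hP.of_surjective φ.rangeRestrict φ.rangeRestrict_surjective
  haveI : Nontrivial φ.range := (Subgroup.nontrivial_iff_ne_bot _).mpr htriv
  haveI := hR.center_nontrivial
  obtain ⟨c, hc1⟩ := exists_ne (1 : Subgroup.center φ.range)
  obtain ⟨k, hk⟩ := IsPGroup.iff_orderOf.mp (hR.to_subgroup _) c
  have hk0 : k ≠ 0 := fun h => hc1 (orderOf_eq_one_iff.mp (by rw [hk, h, pow_zero]))
  set c' := c ^ p ^ (k - 1) with hc'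
  have hc'o : orderOf c' = p := by
    rw [hc', orderOf_pow, hk, Nat.gcd_eq_right (pow_dvd_pow p (Nat.sub_le k 1)),
      Nat.pow_div (Nat.sub_le k 1) hp.out.pos, show k - (k - 1) = 1 by omega, pow_one]
  obtain ⟨x₀, hx₀⟩ := (c' : φ.range).2
  set z := φ x₀ with hz
  have hzp : z ^ p = 1 := by
    rw [hx₀, ← Subgroup.coe_pow, ← Subgroup.coe_pow, ← hc'o, pow_orderOf_eq_one]
    rfl
  have hz1 : z ≠ 1 := fun h => by
    have : c' = 1 := Subtype.ext (Subtype.ext (hx₀.symm.trans h))
    rw [this, orderOf_one] at hc'o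
    exact hp.out.ne_one hc'o.symm
  have hzc : ∀ x, φ x * z = z * φ x := fun x => by
    have := Subgroup.mem_center_iff.mp c'.2 ⟨φ x, x, rfl⟩
    rw [hx₀]
    exact congrArg Subtype.val this
  have hzci : ∀ (x : P) (i : ℕ) (v : K), φ x ((z ^ i) v) = (z ^ i) (φ x v) := fun x i v => by
    rw [← MulAut.mul_apply, ← MulAut.mul_apply, (show Commute (φ x) z from hzc x).pow_right i]
  have hpow : ∀ v : K, v ^ p = 1 → v = 1 := fun v hv => by
    by_contra h1
    exact hpK (orderOf_eq_prime hv h1 ▸ orderOf_dvd_natCard v)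
  let π : K →* K :=
    { toFun := fun v => ∏ i ∈ Finset.range p, (z ^ i) v
      map_one' := by simp
      map_mul' := fun a b => by simp [Finset.prod_mul_distrib] }
  have hπfix : ∀ v, z (π v) = π v := fun v => prod_range_shift z hzp v
  have hπself : ∀ v, z v = v → π v = v ^ p := fun v hv => by
    have : ∀ i : ℕ, (z ^ i) v = v := fun i => by
      induction i with
      | zero => rfl
      | succ i ih => rw [pow_succ, MulAut.mul_apply, hv, ih]
    show ∏ i ∈ Finset.range p, (z ^ i) v = v ^ p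
    simp [this]
  have hπcomm : ∀ x v, φ x (π v) = π (φ x v) := fun x v => by
    show φ x (∏ i ∈ Finset.range p, (z ^ i) v) = ∏ i ∈ Finset.range p, (z ^ i) (φ x v)
    rw [map_prod]
    exact Finset.prod_congr rfl fun i _ => hzci x i v
  set C := fixSub φ x₀ with hC
  set D := π.ker with hD
  have hCD : ∀ v ∈ C, v ∈ D → v = 1 := fun v hv hv' =>
    hpow v (by rw [← hπself v hv]; exact hv')
  have hsplit : ∀ F : Subgroup K, (∀ v ∈ F, π v ∈ F) →
      Nat.card F = Nat.card ↥(F ⊓ C) * Nat.card ↥(F ⊓ D) := by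
    intro F hF
    let g : F →* K := π.comp F.subtype
    have hrange : g.range = F ⊓ C := by
      refine le_antisymm ?_ fun w hw => ?_
      · rintro _ ⟨v, rfl⟩
        exact ⟨hF v v.2, hπfix v⟩
      · have hcop : (orderOf w).Coprime p :=
          ((hp.out.coprime_iff_not_dvd).mpr fun h => hpK (h.trans (orderOf_dvd_natCard w))).symm
        obtain ⟨i, hi⟩ := exists_pow_eq_self_of_coprime hcop.symm
        refine ⟨⟨w ^ i, F.pow_mem hw.1 i⟩, ?_⟩
        show π (w ^ i) = w
        rw [map_pow, hπself w hw.2, hi]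
    have hker : g.ker = D.subgroupOf F := by ext v; rfl
    rw [Subgroup.card_eq_card_quotient_mul_card_subgroup g.ker,
      Nat.card_congr (QuotientGroup.quotientKerEquivRange g).toEquiv, hrange, hker,
      card_subgroupOf_eq, inf_comm D F]
  have hFx : ∀ x, ∀ v ∈ fixSub φ x, π v ∈ fixSub φ x := fun x v hv => by
    rw [mem_fixSub] at hv ⊢
    rw [hπcomm, hv]
  have hFA : ∀ v ∈ fixAll φ, π v ∈ fixAll φ := fun v hv => by
    rw [mem_fixAll] at hv ⊢
    exact fun x => by rw [hπcomm, hv x]
  have hAD : fixAll φ ⊓ D = ⊥ := (Subgroup.eq_bot_iff_forall _).mpr fun v hv =>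
    hCD v (mem_fixAll.mp hv.1 x₀) hv.2
  have hCinv : ∀ x : P, ∀ v ∈ C, φ x v ∈ C := fun x v hv => by
    rw [hC, mem_fixSub] at hv ⊢
    rw [← hz] at hv ⊢
    have := hzci x 1 v
    rw [pow_one] at this
    rw [← this, hv]
  have hCK : Nat.card C < Nat.card K := by
    refine lt_of_le_of_ne (Nat.le_of_dvd Nat.card_pos (Subgroup.card_subgroup_dvd_card C)) fun h => hz1 ?_
    have : C = ⊤ := Subgroup.eq_top_of_card_eq C h
    exact MulEquiv.ext fun v => (this ▸ Subgroup.mem_top v : v ∈ C)
  have ihC := ih (Nat.card C) (hn ▸ hCK) (restrictAction φ C hCinv) rfl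
    fun h => hpK (h.trans (Subgroup.card_subgroup_dvd_card C))
  rw [FixedProductBound] at ihC
  simp only [fixSub_restrict, fixAll_restrict, card_subgroupOf_eq] at ihC
  -- the fixed-point-free part
  have hDpart : ∀ x : P,
      (∏ i : Fin p, Nat.card ↥(fixSub φ (x * x₀ ^ (i : ℕ)) ⊓ D)) ∣ Nat.card D := by
    intro x
    let f : (∀ i : Fin p, ↥(fixSub φ (x * x₀ ^ (i : ℕ)) ⊓ D)) →* D :=
      { toFun := fun v => ⟨∏ i, (v i : K), D.prod_mem fun i _ => (v i).2.2⟩
        map_one' := Subtype.ext (by simp)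
        map_mul' := fun a b => Subtype.ext (by simp [Finset.prod_mul_distrib]) }
    rw [← Nat.card_pi]
    refine Subgroup.card_dvd_of_injective f ((injective_iff_map_eq_one f).mpr fun v hv => ?_)
    have hv' : ∏ i, (v i : K) = 1 := congrArg Subtype.val hv
    funext j
    refine Subtype.ext (hpow _ ?_)
    let T : K →* K :=
      { toFun := fun w => ∏ k ∈ Finset.range p, (z ^ (k * (j : ℕ))) ((φ x ^ k) w)
        map_one' := by simp
        map_mul' := fun a b => by simp [Finset.prod_mul_distrib] }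
    have hTv : ∀ i : Fin p, T (v i : K) =
        ∏ k ∈ Finset.range p, ((z ^ ((j : ℕ) + (p - (i : ℕ)))) ^ k) (v i : K) := by
      intro i
      show ∏ k ∈ Finset.range p, (z ^ (k * (j : ℕ))) ((φ x ^ k) (v i : K)) = _
      refine Finset.prod_congr rfl fun k _ => ?_
      have hfix : φ (x * x₀ ^ (i : ℕ)) (v i : K) = v i := (v i).2.1
      rw [map_mul, map_pow, MulAut.mul_apply, ← hz] at hfix
      have hx : φ x (v i : K) = (z ^ (p - (i : ℕ))) (v i : K) := by
        conv_rhs => rw [← hfix]
        rw [← hzci, ← MulAut.mul_apply, ← MulAut.mul_apply, mul_assoc,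
          ← pow_add, Nat.sub_add_cancel i.2.le, hzp, mul_one]
      have hxk : ∀ k : ℕ, (φ x ^ k) (v i : K) = (z ^ ((p - (i : ℕ)) * k)) (v i : K) := by
        intro k
        induction k with
        | zero => simp
        | succ k ih =>
          rw [pow_succ', MulAut.mul_apply, ih, hzci, hx, ← MulAut.mul_apply, ← pow_add, mul_add, mul_one]
      rw [hxk, ← MulAut.mul_apply, ← pow_add, ← pow_mul, mul_comm k, add_mul]
    have hTj : T (v j : K) = (v j : K) ^ p := by
      rw [hTv, show (j : ℕ) + (p - (j : ℕ)) = p by omega, hzp]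
      simp
    have hTi : ∀ i : Fin p, i ≠ j → T (v i : K) = 1 := by
      intro i hij
      set e := (j : ℕ) + (p - (i : ℕ)) with he
      rw [hTv, ← he]
      have hep : ¬ p ∣ e := by
        intro hd
        apply hij
        have hi := i.2
        have hj := j.2
        obtain ⟨q, hq⟩ := hd
        rcases Nat.lt_or_ge q 2 with hq2 | hq2
        · interval_cases q
          · omega
          · exact Fin.ext (by omega)
        · have : p * 2 ≤ p * q := Nat.mul_le_mul_left p hq2
          omega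
      set u := ∏ k ∈ Finset.range p, ((z ^ e) ^ k) (v i : K) with hu
      refine hCD u ?_ ?_
      · have h1 : (z ^ e) u = u := prod_range_shift (z ^ e) (by rw [← pow_mul, mul_comm, pow_mul, hzp, one_pow]) _
        have hze : orderOf z = p := orderOf_eq_prime hzp hz1
        obtain ⟨t, ht⟩ := exists_pow_eq_self_of_coprime
          (show Nat.Coprime e (orderOf z) by rw [hze]; exact ((hp.out.coprime_iff_not_dvd).mpr hep).symm)
        rw [hC, mem_fixSub, ← hz, ← ht]
        clear_value u
        clear ht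
        induction t with
        | zero => rw [pow_zero, MulAut.one_apply]
        | succ t ih => rw [pow_succ, MulAut.mul_apply, h1, ih]
      · refine D.prod_mem fun k _ => ?_
        show π (((z ^ e) ^ k) (v i : K)) = 1
        rw [← pow_mul, show z ^ (e * k) = φ (x₀ ^ (e * k)) by rw [map_pow], ← hπcomm,
          (v i).2.2, map_one]
    have := congrArg T hv'
    rw [map_one, map_prod, Finset.prod_eq_single j (fun i _ hi => hTi i hi) (by simp), hTj] at this
    exact this
  have hDall : (∏ x : P, Nat.card ↥(fixSub φ x ⊓ D)) ^ p ∣ Nat.card D ^ Nat.card P := by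
    have h1 : (∏ x : P, Nat.card ↥(fixSub φ x ⊓ D)) ^ p =
        ∏ x : P, ∏ i : Fin p, Nat.card ↥(fixSub φ (x * x₀ ^ (i : ℕ)) ⊓ D) := by
      have h2 : ∀ i : Fin p, (∏ x : P, Nat.card ↥(fixSub φ (x * x₀ ^ (i : ℕ)) ⊓ D)) =
          ∏ x : P, Nat.card ↥(fixSub φ x ⊓ D) := fun i =>
        Equiv.prod_comp (Equiv.mulRight (x₀ ^ (i : ℕ))) (fun x => Nat.card ↥(fixSub φ x ⊓ D))
      rw [Finset.prod_comm, Finset.prod_congr rfl (fun i _ => h2 i), Finset.prod_const,
        Finset.card_univ, Fintype.card_fin]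
    rw [h1, Nat.card_eq_fintype_card (α := P), ← Finset.card_univ, ← Finset.prod_const]
    exact Finset.prod_dvd_prod_of_dvd _ _ fun x _ => hDpart x
  rw [FixedProductBound, Finset.prod_congr rfl (fun x _ => hsplit _ (hFx x)),
    Finset.prod_mul_distrib, mul_pow, hsplit _ hFA, hAD, Subgroup.card_bot, mul_one,
    ← Subgroup.card_top (G := K), hsplit ⊤ (fun _ _ => trivial), top_inf_eq, top_inf_eq, mul_pow]
  rw [show Nat.card C ^ Nat.card P * Nat.card D ^ Nat.card P *
      Nat.card ↥(fixAll φ ⊓ C) ^ ((p - 1) * Nat.card P) =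
    (Nat.card C ^ Nat.card P * Nat.card ↥(fixAll φ ⊓ C) ^ ((p - 1) * Nat.card P)) *
      Nat.card D ^ Nat.card P by ring]
  exact mul_dvd_mul ihC hDall

theorem fixedProductBound_pGroup [Fintype P] (hP : IsPGroup p P) {r : ℕ} [Fact r.Prime]
    (hrp : r ≠ p) :
    ∀ {K : Type v} [Group K] [Finite K] (φ : P →* MulAut K), IsPGroup r K →
      FixedProductBound p φ := by
  suffices main : ∀ n, ∀ {K : Type v} [Group K] [Finite K] (φ : P →* MulAut K),
      Nat.card K = n → IsPGroup r K → FixedProductBound p φ from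
    fun {K} _ _ φ h => main _ φ rfl h
  intro n
  induction n using Nat.strong_induction_on with
  | _ n ih =>
  intro K _ _ φ hn hK
  have hpK : ¬ p ∣ Nat.card K := by
    obtain ⟨e, he⟩ := IsPGroup.iff_card.mp hK
    rw [he]
    exact fun h => hrp ((Nat.prime_dvd_prime_iff_eq hp.out Fact.out).mp (hp.out.dvd_of_dvd_pow h)).symm
  by_cases hcomm : ∀ a b : K, a * b = b * a
  · letI : CommGroup K := { ‹Group K› with mul_comm := hcomm }
    exact fixedProductBound_comm hP φ hpK
  set Z := Subgroup.center K with hZ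
  haveI : Nontrivial K := by
    by_contra h
    rw [not_nontrivial_iff_subsingleton] at h
    exact hcomm fun a b => Subsingleton.elim _ _
  have hZne : Z ≠ ⊥ := by
    haveI := hK.center_nontrivial
    exact (Subgroup.nontrivial_iff_ne_bot _).mp inferInstance
  have hZtop : Z ≠ ⊤ := fun h => hcomm fun a b =>
    (Subgroup.mem_center_iff.mp (h ▸ Subgroup.mem_top b : b ∈ Z) a)
  have hZinv : ∀ x : P, ∀ v ∈ Z, φ x v ∈ Z := fun x v hv => by
    rw [hZ, Subgroup.mem_center_iff] at hv ⊢
    intro g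
    have := congrArg (φ x) (hv ((φ x).symm g))
    simpa using this
  have hmap : ∀ x : P, Z.map (φ x : K ≃* K) = Z := fun x => by
    refine Subgroup.eq_of_le_of_card_ge ?_ (by
      rw [Subgroup.card_map_of_injective (φ x).injective])
    rintro _ ⟨v, hv, rfl⟩
    exact hZinv x v hv
  let ψ : P →* MulAut (K ⧸ Z) :=
    { toFun := fun x => QuotientGroup.congr Z Z (φ x) (hmap x)
      map_one' := MulEquiv.ext fun q => by
        obtain ⟨v, rfl⟩ := QuotientGroup.mk_surjective q
        simp
      map_mul' := fun x y => MulEquiv.ext fun q => by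
        obtain ⟨v, rfl⟩ := QuotientGroup.mk_surjective q
        simp }
  have hψ : ∀ (x : P) (v : K), ψ x (v : K ⧸ Z) = ((φ x v : K) : K ⧸ Z) := fun x v => rfl
  have hcop : ∀ B : Subgroup P, (Nat.card B).Coprime (Nat.card Z) := fun B => by
    obtain ⟨a, ha⟩ := IsPGroup.iff_card.mp (hP.to_subgroup B)
    rw [ha]
    exact Nat.Coprime.pow_left a ((hp.out.coprime_iff_not_dvd).mpr
      fun h => hpK (h.trans (Subgroup.card_subgroup_dvd_card Z)))
  haveI : Group.IsNilpotent K := hK.isNilpotent
  have hsZ : Group.IsSolvable Z := inferInstance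
  -- fixed points are multiplicative over the centre
  have hmult : ∀ (F : Subgroup K) (F' : Subgroup (K ⧸ Z)),
      (∀ v ∈ F, (v : K ⧸ Z) ∈ F') → (∀ q ∈ F', ∃ v ∈ F, (v : K ⧸ Z) = q) →
      Nat.card F = Nat.card ↥(F ⊓ Z) * Nat.card F' := by
    intro F F' h1 h2
    let g : F →* K ⧸ Z := (QuotientGroup.mk' Z).comp F.subtype
    have hrange : g.range = F' := by
      refine le_antisymm ?_ fun q hq => ?_
      · rintro _ ⟨v, rfl⟩; exact h1 v v.2
      · obtain ⟨v, hv, rfl⟩ := h2 q hq; exact ⟨⟨v, hv⟩, rfl⟩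
    have hker : g.ker = Z.subgroupOf F := by
      ext v; exact QuotientGroup.eq_one_iff _
    rw [Subgroup.card_eq_card_quotient_mul_card_subgroup g.ker,
      Nat.card_congr (QuotientGroup.quotientKerEquivRange g).toEquiv, hrange, hker,
      card_subgroupOf_eq, inf_comm Z F, mul_comm]
  have hlift : ∀ (B : Subgroup P) (v : K), (∀ a ∈ B, ψ a (v : K ⧸ Z) = v) →
      ∃ w : K, (w : K ⧸ Z) = v ∧ ∀ a ∈ B, φ a w = w := by
    intro B v hv
    obtain ⟨w, hw, hwfix⟩ := CoprimeAction.exists_fixed_mem_coset (φ.comp B.subtype)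
      (fun a n hn => hZinv a n hn) (hcop B) (Or.inr hsZ)
      (x := v) fun a => QuotientGroup.eq.mp ((hψ a v).symm.trans (hv a a.2)).symm
    exact ⟨w, (QuotientGroup.eq.mpr hw).symm, fun a ha => hwfix ⟨a, ha⟩⟩
  have hsub : ∀ x, Nat.card (fixSub φ x) = Nat.card ↥(fixSub φ x ⊓ Z) * Nat.card (fixSub ψ x) := by
    refine fun x => hmult _ _ (fun v hv => ?_) fun q hq => ?_
    · rw [mem_fixSub] at hv ⊢
      rw [hψ, hv]
    · obtain ⟨v, rfl⟩ := QuotientGroup.mk_surjective q
      obtain ⟨w, hw, hwf⟩ := hlift (Subgroup.zpowers x) v fun a ha =>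
        (Subgroup.zpowers_le.mpr (show x ∈ fixers ψ (v : K ⧸ Z) from hq)) ha
      exact ⟨w, hwf x (Subgroup.mem_zpowers x), hw⟩
  have hall : Nat.card (fixAll φ) = Nat.card ↥(fixAll φ ⊓ Z) * Nat.card (fixAll ψ) := by
    refine hmult _ _ (fun v hv => ?_) fun q hq => ?_
    · rw [mem_fixAll] at hv ⊢
      exact fun x => by rw [hψ, hv]
    · obtain ⟨v, rfl⟩ := QuotientGroup.mk_surjective q
      obtain ⟨w, hw, hwf⟩ := hlift ⊤ v fun a _ => mem_fixAll.mp hq a
      exact ⟨w, mem_fixAll.mpr fun x => hwf x trivial, hw⟩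
  have hZK : Nat.card Z < Nat.card K :=
    lt_of_le_of_ne (Nat.le_of_dvd Nat.card_pos (Subgroup.card_subgroup_dvd_card Z))
      fun h => hZtop (Subgroup.eq_top_of_card_eq Z h)
  have hKZ : Nat.card (K ⧸ Z) < Nat.card K := by
    have h1 : 1 < Nat.card Z := by
      rw [Finite.one_lt_card_iff_nontrivial]
      exact (Subgroup.nontrivial_iff_ne_bot _).mpr hZne
    rw [Subgroup.card_eq_card_quotient_mul_card_subgroup Z]
    exact lt_mul_of_one_lt_right Nat.card_pos h1
  have i1 := ih _ (hn ▸ hZK) (restrictAction φ Z hZinv) rfl (hK.to_subgroup Z)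
  have i2 := ih _ (hn ▸ hKZ) ψ rfl (hK.to_quotient Z)
  rw [FixedProductBound] at i1 i2 ⊢
  simp only [fixSub_restrict, fixAll_restrict, card_subgroupOf_eq] at i1
  rw [Finset.prod_congr rfl (fun x _ => hsub x), Finset.prod_mul_distrib, mul_pow, hall,
    Subgroup.card_eq_card_quotient_mul_card_subgroup Z, mul_pow, mul_pow]
  refine (mul_dvd_mul i1 i2).trans (dvd_of_eq ?_)
  ring

section Ambient

variable {G : Type u} [Group G] [Finite G]

theorem card_inf_centralizer_sylow {r : ℕ} [Fact r.Prime] {B N : Subgroup G}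
    (hBN : B ≤ Subgroup.normalizer (N : Set G)) (hcop : (Nat.card B).Coprime (Nat.card N))
    (hB : Group.IsSolvable B) (R : Sylow r N)
    (hR : B ≤ Subgroup.normalizer ((R : Subgroup N).map N.subtype : Set G)) :
    Nat.card ↥((R : Subgroup N).map N.subtype ⊓ Subgroup.centralizer (B : Set G)) =
      r ^ (Nat.card ↥(N ⊓ Subgroup.centralizer (B : Set G))).factorization r := by
  set C := N ⊓ Subgroup.centralizer (B : Set G) with hC
  obtain ⟨T⟩ := (inferInstance : Nonempty (Sylow r C))
  set T' := (T : Subgroup C).map C.subtype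
  have hBT : B ≤ Subgroup.normalizer (T' : Set G) := fun b hb => by
    refine Subgroup.centralizer_le_normalizer _ (Subgroup.mem_centralizer_iff.mpr fun t ht => ?_)
    exact (Subgroup.mem_centralizer_iff.mp (Subgroup.map_subtype_le _ ht).2 b hb).symm
  obtain ⟨R', hT, hR'⟩ := CoprimeAction.exists_invariant_sylow_ge hBN hcop (Or.inl hB)
    ((Subgroup.map_subtype_le _).trans inf_le_left : T' ≤ N) (T.isPGroup'.map _) hBT
  obtain ⟨c, hc, hcR⟩ := CoprimeAction.invariant_sylow_conj hBN hcop (Or.inl hB) R R' hR hR'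
  obtain ⟨e, he⟩ := IsPGroup.iff_card.mp ((R.isPGroup'.map N.subtype).to_le
    (inf_le_left : (R : Subgroup N).map N.subtype ⊓ Subgroup.centralizer (B : Set G) ≤ _))
  refine Nat.dvd_antisymm ?_ ?_
  · rw [he]
    refine Nat.pow_dvd_pow r ((Fact.out : r.Prime).pow_dvd_iff_le_factorization Nat.card_pos.ne' |>.mp ?_)
    rw [← he]
    exact Subgroup.card_dvd_of_le (inf_le_inf (Subgroup.map_subtype_le _) le_rfl)
  · rw [← T.card_eq_multiplicity,
      Nat.card_congr (Subgroup.equivMapOfInjective (T : Subgroup C) C.subtype C.subtype_injective).toEquiv,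
      ← CoprimeAction.card_conj_smul (c : G)⁻¹]
    refine Subgroup.card_dvd_of_le fun t ht => ?_
    rw [CoprimeAction.mem_conj_iff, inv_inv] at ht
    have h1 := hT ht
    rw [show (R' : Subgroup N) = MulAut.conj c • (R : Subgroup N) by rw [← hcR]; rfl,
      CoprimeAction.map_conj_subtype,
      CoprimeAction.mem_conj_iff] at h1
    rw [show (c : G)⁻¹ * ((c : G) * t * (c : G)⁻¹) * c = t by group] at h1
    refine ⟨h1, ?_⟩
    have h2 := Subgroup.mul_mem _ (Subgroup.mul_mem _ (Subgroup.inv_mem _ hc)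
      (Subgroup.map_subtype_le _ ht).2) hc
    simpa [mul_assoc] using h2

/-- Ambient form of the divisibility. -/
theorem prod_card_centralizer_dvd {P N : Subgroup G} [Fintype P] (hP : IsPGroup p P)
    (hPN : P ≤ Subgroup.normalizer (N : Set G)) (hN : ¬ p ∣ Nat.card N) :
    (∏ x : P, Nat.card ↥(N ⊓ Subgroup.centralizer ({(x : G)} : Set G))) ^ p ∣
      Nat.card N ^ Nat.card P *
        Nat.card ↥(N ⊓ Subgroup.centralizer (P : Set G)) ^ ((p - 1) * Nat.card P) := by
  have hne : ∀ x ∈ (Finset.univ : Finset P),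
      Nat.card ↥(N ⊓ Subgroup.centralizer ({(x : G)} : Set G)) ≠ 0 := fun _ _ => Nat.card_pos.ne'
  rw [← Nat.factorization_le_iff_dvd (pow_ne_zero _ (Finset.prod_ne_zero_iff.mpr hne))
    (mul_ne_zero (pow_ne_zero _ Nat.card_pos.ne') (pow_ne_zero _ Nat.card_pos.ne'))]
  intro r
  by_cases hr : r.Prime
  swap
  · simp [Nat.factorization_eq_zero_of_not_prime _ hr]
  haveI := Fact.mk hr
  rw [Nat.factorization_pow, Nat.factorization_prod hne,
    Nat.factorization_mul (pow_ne_zero _ Nat.card_pos.ne') (pow_ne_zero _ Nat.card_pos.ne'),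
    Nat.factorization_pow, Nat.factorization_pow]
  simp only [Finsupp.smul_apply, Finsupp.add_apply, Finsupp.finsetSum_apply, smul_eq_mul]
  by_cases hrp : r = p
  · have h0 : ∀ K : Subgroup G, K ≤ N → (Nat.card K).factorization r = 0 := fun K hK =>
      Nat.factorization_eq_zero_of_not_dvd (hrp ▸ fun h => hN (h.trans (Subgroup.card_dvd_of_le hK)))
    rw [Finset.sum_eq_zero (fun x _ => h0 _ inf_le_left), mul_zero]
    exact Nat.zero_le _
  have hcop : ∀ B : Subgroup G, B ≤ P → (Nat.card B).Coprime (Nat.card N) := fun B hB => by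
    obtain ⟨a, ha⟩ := IsPGroup.iff_card.mp (hP.to_le hB)
    rw [ha]
    exact ((hp.out.coprime_iff_not_dvd).mpr hN).pow_left a
  have hsol : ∀ B : Subgroup G, B ≤ P → Group.IsSolvable B := fun B hB => by
    haveI := (hP.to_le hB).isNilpotent
    infer_instance
  obtain ⟨R, hR⟩ := CoprimeAction.exists_invariant_sylow hPN (hcop P le_rfl) (Or.inl (hsol P le_rfl)) r
  set R' := (R : Subgroup N).map N.subtype
  let φ : P →* MulAut R' := R'.normalizerMonoidHom.comp (Subgroup.inclusion hR)
  have hφ : ∀ (x : P) (v : R'), (φ x v : G) = x * v * (x : G)⁻¹ := fun x v => rfl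
  have hfx : ∀ x : P, Nat.card (fixSub φ x) =
      Nat.card ↥(R' ⊓ Subgroup.centralizer ({(x : G)} : Set G)) := fun x => by
    rw [inf_comm, ← card_subgroupOf_eq]
    congr 2
    ext v
    rw [mem_fixSub, Subtype.ext_iff, hφ, Subgroup.mem_subgroupOf, Subgroup.mem_centralizer_iff,
      mul_inv_eq_iff_eq_mul]
    exact ⟨fun h y hy => by rw [Set.mem_singleton_iff.mp hy, h], fun h => h _ rfl⟩
  have hfa : Nat.card (fixAll φ) = Nat.card ↥(R' ⊓ Subgroup.centralizer (P : Set G)) := by
    rw [inf_comm, ← card_subgroupOf_eq]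
    congr 2
    ext v
    rw [mem_fixAll, Subgroup.mem_subgroupOf, Subgroup.mem_centralizer_iff]
    constructor
    · intro h y hy
      have := congrArg Subtype.val (h ⟨y, hy⟩)
      rw [hφ, mul_inv_eq_iff_eq_mul] at this
      exact this
    · intro h x
      refine Subtype.ext ?_
      rw [hφ, mul_inv_eq_iff_eq_mul]
      exact h x x.2
  have key := fixedProductBound_pGroup hP hrp φ (R.isPGroup'.map N.subtype)
  rw [FixedProductBound, Finset.prod_congr rfl (fun x _ => hfx x), hfa] at key
  have hx : ∀ x : P, Nat.card ↥(R' ⊓ Subgroup.centralizer ({(x : G)} : Set G)) =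
      r ^ (Nat.card ↥(N ⊓ Subgroup.centralizer ({(x : G)} : Set G))).factorization r := fun x => by
    have hz : Subgroup.centralizer ({(x : G)} : Set G) =
        Subgroup.centralizer ((Subgroup.zpowers (x : G) : Subgroup G) : Set G) := by
      rw [Subgroup.zpowers_eq_closure, Subgroup.centralizer_closure]
    have hle : Subgroup.zpowers (x : G) ≤ P := Subgroup.zpowers_le.mpr x.2
    rw [hz]
    exact card_inf_centralizer_sylow (hle.trans hPN) (hcop _ hle) (hsol _ hle) R (hle.trans hR)
  rw [Finset.prod_congr rfl (fun x _ => hx x), Finset.prod_pow_eq_pow_sum,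
    card_inf_centralizer_sylow hPN (hcop P le_rfl) (hsol P le_rfl) R hR,
    Subgroup.card_map_of_injective N.subtype_injective, R.card_eq_multiplicity,
    ← pow_mul, ← pow_mul, ← pow_mul, ← pow_add, Nat.pow_dvd_pow_iff_le_right hr.one_lt] at key
  convert key using 1 <;> ring

end Ambient

end CfsgLib.Subnormal
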