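import Mathlib
import Cfsg.Agent.Lib.Subnormal.InvariantClassTwo
import Cfsg.Agent.Lib.CoprimeAction.Sylow
import Cfsg.Agent.Lib.PGroups.CenterThompsonComplement
import Cfsg.Agent.Lib.FixedPointFree.Splitting

/-!
Coprime action with a nilpotent maximal invariant subgroup whose Sylow `2`-subgroups have class at
most two: the group is solvable as soon as the operator group is solvable.
-/

set_option autoImplicit false
set_option linter.style.haveILetI false

namespace CfsgLib.Subnormal

universe u v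

open Cfsg Subgroup
open scoped Pointwise commutatorElement

theorem conj_mem_normalizer_of_invariant {G : Type u} [Group G] (f : MulAut G) {R : Subgroup G}
    (hR : ∀ r ∈ R, f r ∈ R) (hR' : ∀ r ∈ R, f.symm r ∈ R) {g : G}
    (hg : g ∈ normalizer (R : Set G)) : f g ∈ normalizer (R : Set G) := by
  rw [Subgroup.mem_normalizer_iff] at hg ⊢
  intro x
  constructor
  · intro hx
    have := hR _ ((hg _).mp (hR' x hx))
    simpa using this
  · intro hx
    have := hR' _ hx
    simp only [map_mul, map_inv, MulEquiv.symm_apply_apply] at this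
    simpa using hR _ ((hg _).mpr this)

/-- The hypotheses of the core-free case. -/
structure IsNilpotentInvariantMax {G : Type u} [Group G] {A : Type v} [Group A]
    (φ : A →* MulAut G) (M : Subgroup G) : Prop where
  inv : ∀ a : A, ∀ m ∈ M, φ a m ∈ M
  max : ∀ H : Subgroup G, M ≤ H → H ≠ ⊤ → (∀ a : A, ∀ h ∈ H, φ a h ∈ H) → H = M
  nil : Group.IsNilpotent M
  cls : ∀ x ∈ M, ∀ y ∈ M, ∀ z ∈ M, (∃ k, x ^ 2 ^ k = 1) → (∃ k, y ^ 2 ^ k = 1) →
    (∃ k, z ^ 2 ^ k = 1) → ⁅x, y⁆ * z = z * ⁅x, y⁆

variable {G : Type u} [Group G] [Finite G] {A : Type v} [Group A] [Finite A]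
  {φ : A →* MulAut G} {M : Subgroup G}

theorem IsNilpotentInvariantMax.normalizer_eq (hM : IsNilpotentInvariantMax φ M)
    (hcore : M.normalCore = ⊥) {R : Subgroup G} (hR : R ≠ ⊥) (hRM : R ≤ M)
    (hMR : M ≤ normalizer (R : Set G)) (hRA : ∀ a : A, ∀ r ∈ R, φ a r ∈ R) :
    normalizer (R : Set G) = M := by
  refine hM.max _ hMR (fun h => hR ?_) fun a g hg => conj_mem_normalizer_of_invariant (φ a) (hRA a)
    (fun r hr => by
      have := hRA a⁻¹ r hr
      rwa [map_inv] at this) hg
  have hRn : R.Normal := Subgroup.normalizer_eq_top_iff.mp h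
  exact le_bot_iff.mp (hcore ▸ Subgroup.normal_le_normalCore.mpr hRM)

/-- The Sylow `p`-subgroup of `M` is an `A`-invariant Sylow `p`-subgroup of `G`. -/
theorem IsNilpotentInvariantMax.exists_sylow (hM : IsNilpotentInvariantMax φ M)
    (hcore : M.normalCore = ⊥) (p : ℕ) [Fact p.Prime] (hp : p ∣ Nat.card M) :
    ∃ S : Sylow p G, (S : Subgroup G) ≤ M ∧ (S : Subgroup G) ≠ ⊥ ∧
      (∀ a : A, ∀ s ∈ (S : Subgroup G), φ a s ∈ (S : Subgroup G)) ∧
      (∀ m ∈ M, (orderOf m).Coprime p → ∀ s ∈ (S : Subgroup G), s * m = m * s) ∧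
      ∀ R : Subgroup G, R ≤ (S : Subgroup G) → (S : Subgroup G) ≤ normalizer (R : Set G) →
        M ≤ normalizer (R : Set G) := by
  classical
  obtain ⟨P⟩ : Nonempty (Sylow p M) := inferInstance
  haveI hPn : (P : Subgroup M).Normal :=
    (Group.isNilpotent_of_finite_tfae.out 0 3 rfl rfl).mp hM.nil p ‹_› P
  set Q := (P : Subgroup M).map M.subtype with hQ
  have hQM : Q ≤ M := Subgroup.map_subtype_le _
  have hmem : ∀ m, m ∈ M → (∃ k, m ^ p ^ k = 1) → m ∈ Q := by
    rintro m hm ⟨k, hk⟩
    refine ⟨⟨m, hm⟩, (QuotientGroup.eq_one_iff _).mp (orderOf_eq_one_iff.mp ?_), rfl⟩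
    refine Nat.eq_one_of_dvd_coprimes
      ((Fact.out (p := p.Prime)).coprime_iff_not_dvd.mpr P.not_dvd_index |>.pow_left k)
      ((orderOf_map_dvd (QuotientGroup.mk' (P : Subgroup M)) (⟨m, hm⟩ : M)).trans
        (orderOf_dvd_of_pow_eq_one (Subtype.ext (by simpa using hk)))) ?_
    exact orderOf_dvd_natCard _
  have hQp : ∀ s ∈ Q, ∃ k, s ^ p ^ k = 1 := fun s hs => by
    obtain ⟨k, hk⟩ := (P.2.map M.subtype) ⟨s, hs⟩
    exact ⟨k, by simpa using congrArg Subtype.val hk⟩
  have hQA : ∀ a : A, ∀ s ∈ Q, φ a s ∈ Q := fun a s hs => by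
    obtain ⟨k, hk⟩ := hQp s hs
    exact hmem _ (hM.inv a s (hQM hs)) ⟨k, by rw [← map_pow, hk, map_one]⟩
  have hQ1 : Q ≠ ⊥ := fun h => P.ne_bot_of_dvd_card hp
    ((Subgroup.map_eq_bot_iff_of_injective _ M.subtype_injective).mp h)
  have hMN : M ≤ normalizer (Q : Set G) := by
    refine le_trans ?_ (Subgroup.le_normalizer_map M.subtype)
    rw [Subgroup.normalizer_eq_top_iff.mpr hPn, ← MonoidHom.range_eq_map, Subgroup.range_subtype]
  obtain ⟨S, hS⟩ := (P.2.map M.subtype).exists_le_sylow
  have heq : Q = (S : Subgroup G) := by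
    by_contra hne
    haveI := S.2.isNilpotent
    have hlt : Q.subgroupOf (S : Subgroup G) < ⊤ :=
      lt_top_iff_ne_top.mpr fun h => hne (le_antisymm hS (Subgroup.subgroupOf_eq_top.mp h))
    obtain ⟨x, hx, hxQ⟩ := SetLike.exists_of_lt (Group.normalizerCondition_of_isNilpotent _ hlt)
    have hxN : (x : G) ∈ normalizer (Q : Set G) := by
      have := Subgroup.le_normalizer_map (S : Subgroup G).subtype ⟨x, hx, rfl⟩
      rwa [Subgroup.subgroupOf_map_subtype, inf_eq_left.mpr hS] at this
    rw [hM.normalizer_eq hcore hQ1 hQM hMN hQA] at hxN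
    obtain ⟨k, hk⟩ := S.2 x
    exact hxQ (hmem _ hxN ⟨k, by simpa using congrArg Subtype.val hk⟩)
  have hcomm : ∀ m ∈ M, (orderOf m).Coprime p → ∀ s ∈ Q, s * m = m * s := by
    rintro m hm hcop _ ⟨t, ht, rfl⟩
    have := NormalPComplement.commute_of_normal_pGroup
      (FixedPointFree.hasNormalPComplement_of_isNilpotent p hM.nil) P.2 (g := (⟨m, hm⟩ : M))
      (by rwa [Subgroup.orderOf_mk]) ht
    exact congrArg Subtype.val this.eq
  refine ⟨S, heq ▸ hQM, heq ▸ hQ1, heq ▸ hQA, heq ▸ hcomm, fun R hR hSR m hm => ?_⟩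
  obtain ⟨i, j, hij, ⟨k, hk⟩, hj⟩ :=
    NormalPComplement.exists_pParts (p := p) (isOfFinOrder_of_finite m)
  rw [← hij]
  refine mul_mem (hSR ?_) (Subgroup.centralizer_le_normalizer _ ?_)
  · exact heq ▸ hmem _ (pow_mem hm i) ⟨k, orderOf_dvd_iff_pow_eq_one.mp hk⟩
  · exact Subgroup.mem_centralizer_iff.mpr fun s hs =>
      hcomm _ (pow_mem hm j) hj s (heq ▸ hR hs)

/-- Local analysis: `G` has a normal `p`-complement for each prime divisor of `|M|`. -/
theorem IsNilpotentInvariantMax.hasNormalPComplement (hM : IsNilpotentInvariantMax φ M)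
    (hcop : (Nat.card A).Coprime (Nat.card G)) (hcore : M.normalCore = ⊥) (p : ℕ) [Fact p.Prime]
    (hp : p ∣ Nat.card M) : HasNormalPComplement p G := by
  classical
  obtain ⟨S, hSM, hS1, hSA, hcomm, hnorm⟩ := hM.exists_sylow hcore p hp
  rcases eq_or_ne p 2 with rfl | hp2
  · have hA : Odd (Nat.card A) := Nat.coprime_two_right.mp
      (hcop.coprime_dvd_right (hp.trans (Subgroup.card_subgroup_dvd_card M)))
    have h2el : ∀ s ∈ (S : Subgroup G), ∃ k, s ^ 2 ^ k = 1 := fun s hs => by
      obtain ⟨k, hk⟩ := S.2 ⟨s, hs⟩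
      exact ⟨k, by simpa using congrArg Subtype.val hk⟩
    refine hasNormalPComplement_two_of_invariant φ hA S hSA
      (fun x hx y hy z hz => hM.cls x (hSM hx) y (hSM hy) z (hSM hz) (h2el x hx) (h2el y hy)
        (h2el z hz)) fun R hRS hR1 hSR hRA w hw hwo => ?_
    rw [hM.normalizer_eq hcore hR1 (hRS.trans hSM) (hnorm R hRS hSR) hRA] at hw
    exact Subgroup.mem_centralizer_iff.mpr fun r hr =>
      hcomm w hw (Nat.coprime_two_right.mpr hwo) r (hRS hr)
  · refine PGroups.hasNormalPComplement_of_normalizer_centerThompsonOf hp2 S ?_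
    have hW := PGroups.isPFunctor_centerThompsonOf (p := p)
    set Z := centerThompsonOf p (S : Subgroup G) with hZ
    have hZS : Z ≤ (S : Subgroup G) := hW.le G _ S.2
    have hZA : ∀ a : A, ∀ z ∈ Z, φ a z ∈ Z := by
      intro a z hz
      have hmap : (S : Subgroup G).map (φ a).toMonoidHom = S := by
        refine Subgroup.eq_of_le_of_card_ge ?_ (le_of_eq
          (Subgroup.card_map_of_injective (MulEquiv.injective _)).symm)
        rintro _ ⟨s, hs, rfl⟩; exact hSA a s hs
      have h := hW.map G G (φ a).toMonoidHom (S : Subgroup G) S.2 (MulEquiv.injective _).injOn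
      rw [hmap] at h
      rw [hZ, h]
      exact ⟨z, hz, rfl⟩
    rw [hM.normalizer_eq hcore (hW.ne_bot G _ S.2 hS1) (hZS.trans hSM)
      (hnorm Z hZS (NormalPComplement.sylow_le_normalizer_of_functor hW S)) hZA]
    exact FixedPointFree.hasNormalPComplement_of_isNilpotent p hM.nil

/-- The core-free case. -/
theorem IsNilpotentInvariantMax.isSolvable_of_coreFree (hM : IsNilpotentInvariantMax φ M)
    (hcop : (Nat.card A).Coprime (Nat.card G)) (hA : Group.IsSolvable A)
    (hcore : M.normalCore = ⊥) : Group.IsSolvable G := by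
  classical
  set K : Subgroup G := ⨅ p ∈ (Nat.card M).primeFactors, pPrimeCore p G with hKdef
  have hKn : K.Normal :=
    Subgroup.normal_iInf_normal fun p => Subgroup.normal_iInf_normal fun _ => inferInstance
  have hKA : ∀ a : A, ∀ k ∈ K, φ a k ∈ K := by
    intro a k hk
    simp only [hKdef, Subgroup.mem_iInf] at hk ⊢
    intro q hq
    rw [← Cores.map_pPrimeCore_equiv (p := q) (φ a)]
    exact ⟨k, hk q hq, rfl⟩
  have hKco : (Nat.card K).Coprime (Nat.card M) := by
    refine Nat.coprime_of_dvd fun p hp hpK hpM => ?_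
    haveI := Fact.mk hp
    have hle : K ≤ pPrimeCore p G :=
      iInf₂_le p (Nat.mem_primeFactors.mpr ⟨hp, hpM, Nat.card_pos.ne'⟩)
    refine hp.not_dvd_one ?_
    rw [← Cores.card_coprime_of_le_pPrimeCore hle]
    exact Nat.dvd_gcd hpK dvd_rfl
  have hKsup : K ⊔ M = ⊤ := by
    refine Subgroup.eq_top_of_card_eq _ ?_
    refine Nat.dvd_antisymm (Subgroup.card_subgroup_dvd_card _) ?_
    refine (Nat.dvd_iff_prime_pow_dvd_dvd _ _).mpr fun p k hp hk => ?_
    haveI := Fact.mk hp
    obtain ⟨S⟩ : Nonempty (Sylow p G) := inferInstance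
    have hkS : p ^ k ∣ Nat.card S := by
      rw [S.card_eq_multiplicity]
      exact pow_dvd_pow p ((hp.pow_dvd_iff_le_factorization Nat.card_pos.ne').mp hk)
    by_cases hpM : p ∣ Nat.card M
    · obtain ⟨S₀, hS₀, -⟩ := hM.exists_sylow hcore p hpM
      refine hkS.trans ?_
      rw [S.card_eq_multiplicity, ← S₀.card_eq_multiplicity]
      exact Subgroup.card_dvd_of_le (hS₀.trans le_sup_right)
    · refine hkS.trans (Subgroup.card_dvd_of_le (le_trans ?_ le_sup_left))
      intro x hx
      rw [hKdef]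
      simp only [Subgroup.mem_iInf]
      intro q hq
      obtain ⟨hq', hqM, -⟩ := Nat.mem_primeFactors.mp hq
      haveI := Fact.mk hq'
      refine NormalPComplement.mem_pPrimeCore_of_coprime
        (hM.hasNormalPComplement hcop hcore q hqM) ?_
      obtain ⟨e, he⟩ := S.2 ⟨x, hx⟩
      exact Nat.Coprime.coprime_dvd_left
        (orderOf_dvd_of_pow_eq_one (by simpa using congrArg Subtype.val he))
        (Nat.Coprime.pow_left _ ((Nat.coprime_primes hp hq').mpr fun h => hpM (h ▸ hqM)))
  -- subgroups of `K` invariant under `M` and `A`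
  have hinv : ∀ U : Subgroup G, U ≤ K → M ≤ normalizer (U : Set G) →
      (∀ a : A, ∀ g ∈ U, φ a g ∈ U) → U = ⊥ ∨ U = K := by
    intro U hUK hU hUA
    have hsupA : ∀ a : A, ∀ g ∈ M ⊔ U, φ a g ∈ M ⊔ U := by
      intro a
      have hle : M ⊔ U ≤ (M ⊔ U).comap (φ a).toMonoidHom := sup_le
        (fun g hg => Subgroup.mem_sup_left (hM.inv a g hg))
        (fun g hg => Subgroup.mem_sup_right (hUA a g hg))
      exact hle
    by_cases htop : M ⊔ U = ⊤
    · right
      refine le_antisymm hUK fun x hx => ?_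
      have hUn : U.Normal := Subgroup.normalizer_eq_top_iff.mp
        (top_le_iff.mp (htop ▸ sup_le hU Subgroup.le_normalizer))
      have hx' : x ∈ U ⊔ M := by rw [sup_comm, htop]; exact Subgroup.mem_top x
      obtain ⟨u, hu, m, hm, rfl⟩ := Subgroup.mem_sup_of_normal_left.mp hx'
      have hmK : m ∈ K := (K.mul_mem_cancel_left (hUK hu)).mp hx
      rw [orderOf_eq_one_iff.mp (Nat.eq_one_of_dvd_coprimes hKco
        (Subgroup.orderOf_dvd_natCard K hmK) (Subgroup.orderOf_dvd_natCard M hm)), mul_one]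
      exact hu
    · left
      have hUM : U ≤ M := le_sup_right.trans (hM.max _ le_sup_left htop hsupA).le
      exact Subgroup.card_eq_one.mp (Nat.eq_one_of_dvd_coprimes hKco
        (Subgroup.card_dvd_of_le hUK) (Subgroup.card_dvd_of_le hUM))
  -- the group `M A` inside the semidirect product
  have hquot : Group.IsSolvable (G ⧸ K) := by
    haveI := hM.nil
    haveI : Group.IsSolvable M := inferInstance
    refine Group.isSolvable_of_surjective (f := (QuotientGroup.mk' K).comp M.subtype) ?_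
    intro y
    obtain ⟨g, rfl⟩ := QuotientGroup.mk_surjective y
    obtain ⟨k, hk, m, hm, rfl⟩ :=
      Subgroup.mem_sup_of_normal_left.mp (hKsup ▸ Subgroup.mem_top g : g ∈ K ⊔ M)
    refine ⟨⟨m, hm⟩, ?_⟩
    change (m : G ⧸ K) = (k : G ⧸ K) * (m : G ⧸ K)
    rw [(QuotientGroup.eq_one_iff k).mpr hk, one_mul]
  have hKsolv : Group.IsSolvable K := by
    rcases eq_or_ne (Nat.card K) 1 with hK1 | hK1
    · haveI : Subsingleton K := (Nat.card_eq_one_iff_unique.mp hK1).1
      infer_instance
    obtain ⟨q, hq, hqK⟩ := Nat.exists_prime_and_dvd hK1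
    haveI := Fact.mk hq
    haveI := CoprimeAction.finite_semidirect φ
    let i : G →* G ⋊[φ] A := SemidirectProduct.inl
    let B : Subgroup (G ⋊[φ] A) :=
      { carrier := {x | x.left ∈ M}
        one_mem' := by simp
        mul_mem' := fun {x y} hx hy => M.mul_mem hx (hM.inv _ _ hy)
        inv_mem' := fun {x} hx => hM.inv _ _ (M.inv_mem hx) }
    have hBcard : Nat.card B = Nat.card M * Nat.card A := by
      rw [← Nat.card_prod]
      exact Nat.card_congr
        { toFun := fun x => (⟨(x : G ⋊[φ] A).left, x.2⟩, (x : G ⋊[φ] A).right)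
          invFun := fun y => ⟨⟨(y.1 : G), y.2⟩, y.1.2⟩
          left_inv := fun x => Subtype.ext rfl
          right_inv := fun y => rfl }
    have hBsolv : Group.IsSolvable B := by
      haveI := hM.nil
      haveI : Group.IsSolvable M := inferInstance
      haveI := hA
      let j : M →* B :=
        (i.comp M.subtype).codRestrict B fun m => show ((i m : G ⋊[φ] A)).left ∈ M from m.2
      refine Group.isSolvable_of_ker_le_range j (SemidirectProduct.rightHom.comp B.subtype) ?_
      intro x hx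
      have hr : (x : G ⋊[φ] A).right = 1 := hx
      refine ⟨⟨(x : G ⋊[φ] A).left, x.2⟩, Subtype.ext ?_⟩
      exact SemidirectProduct.ext rfl hr.symm
    have hBn : B ≤ normalizer ((K.map i : Subgroup (G ⋊[φ] A)) : Set (G ⋊[φ] A)) := by
      intro x hx
      rw [← SemidirectProduct.inl_left_mul_inr_right x]
      refine mul_mem (Subgroup.le_normalizer_map i ⟨x.left, ?_, rfl⟩)
        (CoprimeAction.inr_le_normalizer_map_inl hKA ⟨x.right, rfl⟩)
      rw [Subgroup.normalizer_eq_top_iff.mpr hKn]; trivial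
    have hci : Nat.card (K.map i) = Nat.card K :=
      Subgroup.card_map_of_injective SemidirectProduct.inl_injective
    have hBcop : (Nat.card B).Coprime (Nat.card (K.map i)) := by
      rw [hBcard, hci]
      exact Nat.Coprime.mul_left hKco.symm
        (hcop.coprime_dvd_right (Subgroup.card_subgroup_dvd_card K))
    obtain ⟨Q, hQ⟩ := CoprimeAction.exists_invariant_sylow hBn hBcop (Or.inl hBsolv) q
    set Qx := (Q : Subgroup (K.map i)).map (K.map i).subtype
    set U := Qx.comap i
    have hQK : Qx ≤ K.map i := Subgroup.map_subtype_le _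
    have hUK : U ≤ K := fun g hg => by
      obtain ⟨k, hk, hkg⟩ := hQK hg
      exact SemidirectProduct.inl_injective hkg ▸ hk
    have hUA : ∀ a : A, ∀ g ∈ U, φ a g ∈ U := by
      intro a g hg
      have hin : (SemidirectProduct.inr a : G ⋊[φ] A) ∈ B := show _ ∈ M by simp
      have := (Subgroup.mem_normalizer_iff.mp (hQ hin) (i g)).mp hg
      change i (φ a g) ∈ Qx
      rwa [SemidirectProduct.inl_aut, map_inv]
    have hUM : M ≤ normalizer (U : Set G) := by
      intro m hm
      have hin : i m ∈ B := show _ ∈ M from hm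
      refine Subgroup.mem_normalizer_iff.mpr fun g => ?_
      have := Subgroup.mem_normalizer_iff.mp (hQ hin) (i g)
      simpa [U, map_mul, map_inv] using this
    have hQq : IsPGroup q Qx := Q.2.map _
    rcases hinv U hUK hUM hUA with h | h
    · refine absurd ((Subgroup.map_eq_bot_iff_of_injective _ (K.map i).subtype_injective).mp ?_)
        (Q.ne_bot_of_dvd_card (by rw [hci]; exact hqK))
      refine (Subgroup.eq_bot_iff_forall _).mpr fun y hy => ?_
      obtain ⟨k, hk, rfl⟩ := hQK hy
      rw [show k = 1 from Subgroup.mem_bot.mp (h ▸ (show k ∈ U from hy)), map_one]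
    · have hKp : IsPGroup q K := h ▸ hQq.comap_of_injective i SemidirectProduct.inl_injective
      haveI := hKp.isNilpotent
      infer_instance
  exact Group.isSolvable_of_ker_le_range K.subtype (QuotientGroup.mk' K) (by simp)

/-- **Nilpotent maximal invariant subgroups.** -/
theorem isSolvable_of_nilpotentInvariantMax {A : Type v} [Group A] [Finite A]
    (hA : Group.IsSolvable A) :
    ∀ {G : Type u} [Group G] [Finite G] (φ : A →* MulAut G) (M : Subgroup G),
      (Nat.card A).Coprime (Nat.card G) → IsNilpotentInvariantMax φ M → Group.IsSolvable G := by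
  suffices h : ∀ (n : ℕ) (G : Type u) [Group G] [Finite G], Nat.card G = n →
      ∀ (φ : A →* MulAut G) (M : Subgroup G),
        (Nat.card A).Coprime (Nat.card G) → IsNilpotentInvariantMax φ M → Group.IsSolvable G from
    fun {G} _ _ φ M => h _ G rfl φ M
  intro n
  induction n using Nat.strong_induction_on with
  | _ n ih =>
  intro G _ _ hn φ M hcop hM
  by_cases hcore : M.normalCore = ⊥
  · exact hM.isSolvable_of_coreFree hcop hA hcore
  set N := M.normalCore
  have hNM : N ≤ M := Subgroup.normalCore_le M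
  have hNA : ∀ a : A, N.map ((φ a : MulAut G) : G →* G) = N := by
    intro a
    refine Subgroup.eq_of_le_of_card_ge ?_ (le_of_eq
      (Subgroup.card_map_of_injective (MulEquiv.injective _)).symm)
    haveI : (N.map ((φ a : MulAut G) : G →* G)).Normal :=
      Subgroup.Normal.map inferInstance _ (φ a).surjective
    refine Subgroup.normal_le_normalCore.mpr ?_
    rintro _ ⟨g, hg, rfl⟩
    exact hM.inv a g (hNM hg)
  let ψ : A →* MulAut (G ⧸ N) := MonoidHom.mk'
    (fun a => QuotientGroup.congr N N (φ a) (hNA a)) fun a b => by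
      refine MulEquiv.ext fun y => ?_
      obtain ⟨g, rfl⟩ := QuotientGroup.mk_surjective y
      simp [map_mul]
  have hψ : ∀ (a : A) (g : G), ψ a (g : G ⧸ N) = ((φ a g : G) : G ⧸ N) := fun a g => rfl
  have hlt : Nat.card (G ⧸ N) < n := by
    rw [← hn, Subgroup.card_eq_card_quotient_mul_card_subgroup N]
    exact lt_mul_of_one_lt_right Nat.card_pos ((Subgroup.one_lt_card_iff_ne_bot N).mpr hcore)
  set π := QuotientGroup.mk' N
  have hlift : ∀ y ∈ M.map π, (∃ k, y ^ 2 ^ k = 1) → ∃ g ∈ M, π g = y ∧ ∃ k, g ^ 2 ^ k = 1 := by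
    rintro _ ⟨g, hg, rfl⟩ ⟨k, hk⟩
    haveI : Fact (Nat.Prime 2) := ⟨Nat.prime_two⟩
    obtain ⟨i, j, hij, ⟨l, hl⟩, hj⟩ :=
      NormalPComplement.exists_pParts (p := 2) (isOfFinOrder_of_finite g)
    refine ⟨g ^ i, pow_mem hg i, ?_, l, orderOf_dvd_iff_pow_eq_one.mp hl⟩
    have h1 : π (g ^ j) = 1 := orderOf_eq_one_iff.mp (Nat.eq_one_of_dvd_coprimes (hj.pow_right k)
      (orderOf_map_dvd π _) (by
        rw [map_pow]; exact (orderOf_pow_dvd j).trans (orderOf_dvd_of_pow_eq_one hk)))
    conv_rhs => rw [← hij, map_mul, h1, mul_one]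
  have hcop' : (Nat.card A).Coprime (Nat.card (G ⧸ N)) :=
    hcop.coprime_dvd_right (Subgroup.card_quotient_dvd_card N)
  have hM' : IsNilpotentInvariantMax ψ (M.map π) := by
    refine ⟨?_, ?_, ?_, ?_⟩
    · rintro a _ ⟨g, hg, rfl⟩
      exact ⟨φ a g, hM.inv a g hg, (hψ a g).symm⟩
    · intro H hMH hH hHA
      have h1 : H.comap π = M := by
        refine hM.max _ (Subgroup.map_le_iff_le_comap.mp hMH) (fun h => hH ?_) fun a g hg => ?_
        · rw [← Subgroup.map_comap_eq_self_of_surjective (QuotientGroup.mk'_surjective N) H, h,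
            Subgroup.map_top_of_surjective _ (QuotientGroup.mk'_surjective N)]
        · have := hHA a _ hg
          rwa [QuotientGroup.mk'_apply, hψ] at this
      exact (Subgroup.map_comap_eq_self_of_surjective (QuotientGroup.mk'_surjective N) H).symm.trans
        (congrArg (Subgroup.map π) h1)
    · haveI := hM.nil
      exact Group.nilpotent_of_surjective (π.subgroupMap M) (π.subgroupMap_surjective M)
    · intro x hx y hy z hz ex ey ez
      obtain ⟨x', hx', rfl, ex'⟩ := hlift x hx ex
      obtain ⟨y', hy', rfl, ey'⟩ := hlift y hy ey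
      obtain ⟨z', hz', rfl, ez'⟩ := hlift z hz ez
      rw [← map_commutatorElement, ← map_mul, ← map_mul,
        hM.cls x' hx' y' hy' z' hz' ex' ey' ez']
  haveI hquot : Group.IsSolvable (G ⧸ N) := ih _ hlt (G ⧸ N) rfl ψ (M.map π) hcop' hM'
  haveI := hM.nil
  have hNnil : Group.IsNilpotent N :=
    Group.nilpotent_of_mulEquiv (Subgroup.subgroupOfEquivOfLe hNM)
  haveI := hNnil
  haveI hNsolv : Group.IsSolvable N := inferInstance
  exact Group.isSolvable_of_ker_le_range N.subtype (QuotientGroup.mk' N) (by simp)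

end CfsgLib.Subnormal

namespace CfsgLib.Subnormal

universe u₁ v₁

open Cfsg

/-- The statement of S4038, given the odd order theorem in both universes. -/
theorem isSolvable_of_nilpotent_maximal_invariant
    (hFT : ∀ (H : Type u₁) [Group H] [Finite H], Odd (Nat.card H) → Group.IsSolvable H)
    (hFT' : ∀ (H : Type v₁) [Group H] [Finite H], Odd (Nat.card H) → Group.IsSolvable H)
    {G : Type u₁} {A : Type v₁} [Group G] [Finite G] [Group A] [Finite A] (φ : A →* MulAut G)
    (hcop : (Nat.card A).Coprime (Nat.card G)) (M : Subgroup G)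
    (hMinv : ∀ a : A, ∀ m : G, m ∈ M → φ a m ∈ M)
    (hMmax : ∀ H : Subgroup G, M ≤ H → H ≠ ⊤ → (∀ a : A, ∀ h : G, h ∈ H → φ a h ∈ H) → H = M)
    (hnil : Group.IsNilpotent M)
    (h2 : ∀ S : Sylow 2 ↥M, Group.nilpotencyClass ↥(S : Subgroup ↥M) ≤ 2) :
    Group.IsSolvable G := by
  haveI : Fact (Nat.Prime 2) := ⟨Nat.prime_two⟩
  rcases Nat.even_or_odd (Nat.card G) with he | ho
  swap
  · exact hFT G ho
  have hA : Group.IsSolvable A := hFT' A (Nat.coprime_two_right.mp
    (hcop.coprime_dvd_right he.two_dvd))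
  refine isSolvable_of_nilpotentInvariantMax hA φ M hcop ⟨hMinv, hMmax, hnil, ?_⟩
  intro x hx y hy z hz ex ey ez
  obtain ⟨S⟩ : Nonempty (Sylow 2 M) := inferInstance
  haveI : (S : Subgroup M).Normal :=
    (Group.isNilpotent_of_finite_tfae.out 0 3 rfl rfl).mp hnil 2 ‹_› S
  have hmem : ∀ g (hg : g ∈ M), (∃ k, g ^ 2 ^ k = 1) → (⟨g, hg⟩ : M) ∈ (S : Subgroup M) := by
    rintro g hg ⟨k, hk⟩
    refine (QuotientGroup.eq_one_iff _).mp (orderOf_eq_one_iff.mp ?_)
    refine Nat.eq_one_of_dvd_coprimes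
      ((Fact.out (p := Nat.Prime 2)).coprime_iff_not_dvd.mpr S.not_dvd_index |>.pow_left k)
      ((orderOf_map_dvd (QuotientGroup.mk' (S : Subgroup M)) (⟨g, hg⟩ : M)).trans
        (orderOf_dvd_of_pow_eq_one (Subtype.ext (by simpa using hk)))) ?_
    exact orderOf_dvd_natCard _
  haveI := S.2.isNilpotent
  have hc := commutatorElement_mem_center_of_class_two (h2 S)
    ⟨_, hmem x hx ex⟩ ⟨_, hmem y hy ey⟩
  have h := (Subgroup.mem_center_iff.mp hc ⟨_, hmem z hz ez⟩).symm
  simpa [commutatorElement_def] using congrArg (fun t => (((t : (S : Subgroup M)) : M) : G)) h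

end CfsgLib.Subnormal
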