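/-
For odd `p`: the elements killed by `p` and by `p ^ 2` in a metacyclic `p`-group without cyclic
maximal subgroup.
-/
import Mathlib
import Cfsg.Agent.S0638
import Cfsg.Agent.Lib.BGAppendix.OmegaSmall
import Cfsg.Agent.Lib.PGroups.ClassTwo
import Cfsg.Agent.Lib.PGroups.Frattini
import Cfsg.Agent.Lib.HallClasses.CyclicSubgroups

set_option autoImplicit false
set_option linter.style.haveILetI false

open scoped commutatorElement

namespace CfsgLib.Subnormal

universe u

variable {L : Type u} [Group L] [Finite L] {p : ℕ} [hp : Fact p.Prime]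

theorem not_isCyclic_of_no_cyclic_maximal (hL : IsPGroup p L) (hne : Nontrivial L)
    (hnc : ∀ C : Subgroup L, IsCyclic C → C.index ≠ p) : ¬ IsCyclic L := by
  intro hc
  obtain ⟨M, -, -, hMi, -⟩ := PGroups.exists_le_index_prime hL (H := ⊥) bot_ne_top
  exact hnc M inferInstance hMi

/-- A metacyclic `p`-group of exponent `p` is abelian of order at most `p ^ 2`. -/
theorem metacyclic_exponent_prime (hp2 : p ≠ 2) (hL : IsPGroup p L) (hmc : Cfsg.IsMetacyclic L)
    (hexp : ∀ x : L, x ^ p = 1) : Nat.card L ≤ p ^ 2 ∧ IsMulCommutative L := by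
  have hle : Nat.card L ≤ p ^ 2 :=
    le_trans (Nat.card_le_card_of_injective (fun x => (⟨x, hexp x⟩ : {x : L // x ^ p = 1}))
      fun x y h => congrArg Subtype.val h)
      (BGAppendix.smallOmega_of_isMetacyclic hp2 hL hmc)
  refine ⟨hle, ?_⟩
  obtain ⟨k, hk⟩ := IsPGroup.iff_card.mp hL
  have : k ≤ 2 := (Nat.pow_le_pow_iff_right hp.out.one_lt).mp (hk ▸ hle)
  interval_cases k
  · have : Subsingleton L := (Nat.card_eq_one_iff_unique.mp (by simpa using hk)).1
    exact ⟨⟨fun a b => Subsingleton.elim _ _⟩⟩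
  · have : IsCyclic L := isCyclic_of_prime_card (by simpa using hk)
    exact ⟨⟨fun a b => by
      obtain ⟨g, hg⟩ := IsCyclic.exists_generator (α := L)
      obtain ⟨i, rfl⟩ := hg a
      obtain ⟨j, rfl⟩ := hg b
      exact ((Commute.refl g).zpow_zpow i j).eq⟩⟩
  · exact IsPGroup.isMulCommutative_of_card_eq_prime_sq hk

/-- Without a cyclic maximal subgroup the Frattini subgroup is not cyclic. -/
theorem not_isCyclic_frattini (hp2 : p ≠ 2) (hL : IsPGroup p L) (hmc : Cfsg.IsMetacyclic L)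
    (hne : Nontrivial L) (hnc : ∀ C : Subgroup L, IsCyclic C → C.index ≠ p) :
    ¬ IsCyclic (frattini L) := by
  intro hc
  set P := Subgroup.closure (Set.range fun x : L => x ^ p) with hP
  have hPn : P.Normal := ⟨fun z hz g => by
    induction hz using Subgroup.closure_induction with
    | mem z hz =>
      obtain ⟨x, rfl⟩ := hz
      exact Subgroup.subset_closure ⟨g * x * g⁻¹, by simp only [conj_pow]⟩
    | one => simp
    | mul a b _ _ ha hb => simpa [conj_mul] using mul_mem ha hb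
    | inv a _ ha => simpa [mul_assoc] using inv_mem ha⟩
  have hexp : ∀ q : L ⧸ P, q ^ p = 1 := fun q => by
    obtain ⟨x, rfl⟩ := QuotientGroup.mk'_surjective P q
    rw [← map_pow]
    exact (QuotientGroup.eq_one_iff _).mpr (Subgroup.subset_closure ⟨x, rfl⟩)
  obtain ⟨hcard, hcomm⟩ := metacyclic_exponent_prime hp2 (hL.to_quotient P)
    (BGAppendix.isMetacyclic_quotient hmc P) hexp
  have hΦ : frattini L = P := by
    rw [PGroups.frattini_eq_sup hL, ← hP, sup_eq_right, commutator_def, Subgroup.commutator_le]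
    intro x _ y _
    refine (QuotientGroup.eq_one_iff _).mp ?_
    show QuotientGroup.mk' P ⁅x, y⁆ = 1
    rw [map_commutatorElement, commutatorElement_eq_one_iff_mul_comm]
    exact hcomm.is_comm.comm _ _
  -- a power of largest order generates
  have := Fintype.ofFinite L
  obtain ⟨x, -, hmax⟩ := Finset.exists_max_image (Finset.univ (α := L))
    (fun x => orderOf (x ^ p)) Finset.univ_nonempty
  have hgen : frattini L = Subgroup.zpowers (x ^ p) := by
    refine le_antisymm ?_ (Subgroup.zpowers_le.mpr (PGroups.pow_mem_frattini hL _))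
    conv_lhs => rw [hΦ]
    rw [hP, Subgroup.closure_le]
    rintro _ ⟨y, rfl⟩
    have hdvd : orderOf (y ^ p) ∣ orderOf (x ^ p) := by
      obtain ⟨i, hi⟩ := IsPGroup.iff_orderOf.mp hL (y ^ p)
      obtain ⟨j, hj⟩ := IsPGroup.iff_orderOf.mp hL (x ^ p)
      have := hmax y (Finset.mem_univ _)
      rw [hi, hj] at this ⊢
      exact pow_dvd_pow p ((Nat.pow_le_pow_iff_right hp.out.one_lt).mp this)
    exact HallClasses.le_of_card_dvd_of_isCyclic (C := frattini L)
      (Subgroup.zpowers_le.mpr (PGroups.pow_mem_frattini hL y))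
      (Subgroup.zpowers_le.mpr (PGroups.pow_mem_frattini hL _))
      (by rwa [Nat.card_zpowers, Nat.card_zpowers]) (Subgroup.mem_zpowers _)
  have hidx : (frattini L).index ≤ p ^ 2 := by
    rw [hΦ, Subgroup.index_eq_card]; exact hcard
  have h1 := (frattini L).card_mul_index
  obtain ⟨y, hy, hyΦ⟩ : ∃ y : L, orderOf y = p * Nat.card (frattini L) ∧ True := by
    by_cases hx1 : x ^ p = 1
    · have hb : frattini L = ⊥ := by rw [hgen, hx1, Subgroup.zpowers_one_eq_bot]
      obtain ⟨k, hk0, hk⟩ := hL.nontrivial_iff_card.mp hne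
      obtain ⟨y, hy⟩ := exists_prime_orderOf_dvd_card' p (hk ▸ dvd_pow_self p (by omega))
      exact ⟨y, by rw [hy, hb, Subgroup.card_bot, mul_one], trivial⟩
    · refine ⟨x, ?_, trivial⟩
      rw [hgen, Nat.card_zpowers]
      obtain ⟨i, hi⟩ := IsPGroup.iff_orderOf.mp hL x
      have hi1 : 1 ≤ i := by
        rcases Nat.eq_zero_or_pos i with rfl | h
        · exact absurd (show x ^ p = 1 by rw [(orderOf_eq_one_iff (x := x)).mp (by simpa using hi), one_pow]) hx1
        · exact h
      rw [orderOf_pow' _ hp.out.ne_zero, hi,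
        Nat.gcd_eq_right (dvd_pow_self p (by omega)), Nat.mul_div_cancel' (dvd_pow_self p (by omega))]
  have h2 := (Subgroup.zpowers y).card_mul_index
  rw [Nat.card_zpowers, hy] at h2
  obtain ⟨k, hk⟩ := (hL.index (Subgroup.zpowers y))
  have hkp : (Subgroup.zpowers y).index * p ≤ p ^ 2 := by
    refine le_trans (le_of_eq ?_) hidx
    refine Nat.eq_of_mul_eq_mul_left (Nat.card_pos (α := frattini L)) ?_
    rw [h1, ← h2]; ring
  rcases k with _ | _ | k
  · rw [pow_zero, Subgroup.index_eq_one] at hk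
    exact not_isCyclic_of_no_cyclic_maximal hL hne hnc ⟨y, fun z => by
      have : z ∈ Subgroup.zpowers y := hk ▸ Subgroup.mem_top z
      exact this⟩
  · exact hnc _ (Subgroup.isCyclic_zpowers y) (by rw [hk, zero_add, pow_one])
  · rw [hk, ← pow_succ] at hkp
    have := (Nat.pow_le_pow_iff_right hp.out.one_lt).mp hkp
    omega

/-- **The first two layers**: `E = {x | x ^ p = 1}` has order `p ^ 2`, lies in the Frattini
subgroup and consists of `p`-th powers; `p`-th powers are multiplicative on elements killed by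
`p ^ 2` and commute with them. -/
theorem metacyclic_layers (hp2 : p ≠ 2) (hL : IsPGroup p L) (hmc : Cfsg.IsMetacyclic L)
    (hne : Nontrivial L) (hnc : ∀ C : Subgroup L, IsCyclic C → C.index ≠ p) :
    ∃ E : Subgroup L, (∀ x, x ∈ E ↔ x ^ p = 1) ∧ Cfsg.IsElementaryAbelian p E ∧
      Nat.card E = p ^ 2 ∧ E ≤ frattini L ∧ (∀ e ∈ E, ∃ x : L, x ^ p = e) ∧
      (∀ x y : L, (x ^ p) ^ p = 1 → (y ^ p) ^ p = 1 → (x * y) ^ p = x ^ p * y ^ p) ∧
      (∀ e ∈ E, ∀ x : L, (x ^ p) ^ p = 1 → x * e = e * x) ∧ p ^ 4 ≤ Nat.card L := by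
  classical
  obtain ⟨hEe, hEc⟩ := Cfsg.Agent.S0638.result hp2 hL hmc
    (not_isCyclic_of_no_cyclic_maximal hL hne hnc)
  set E := Cfsg.omegaOne p (⊤ : Subgroup L) with hE
  have hmem : ∀ x, x ∈ E ↔ x ^ p = 1 := fun x =>
    ⟨hEe.2 x, fun h => Subgroup.subset_closure ⟨Subgroup.mem_top x, h⟩⟩
  have hEn : E.Normal := ⟨fun z hz g => (hmem _).mpr (by
    rw [conj_pow, (hmem z).mp hz, mul_one, mul_inv_cancel])⟩
  -- `E` lies in the Frattini subgroup
  have hEΦ : E ≤ frattini L := by
    obtain ⟨-, h2⟩ := Cfsg.Agent.S0638.result hp2 (hL.to_subgroup (frattini L))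
      (BGAppendix.isMetacyclic_subgroup hmc _) (not_isCyclic_frattini hp2 hL hmc hne hnc)
    have hsub : (Cfsg.omegaOne p (⊤ : Subgroup (frattini L))).map (frattini L).subtype ≤ E := by
      rw [Cfsg.omegaOne, MonoidHom.map_closure, Subgroup.closure_le]
      rintro _ ⟨z, ⟨-, hz⟩, rfl⟩
      exact (hmem _).mpr (by simpa using congrArg Subtype.val hz)
    rw [← Subgroup.eq_of_le_of_card_ge hsub (by
      rw [Subgroup.card_map_of_injective (frattini L).subtype_injective, h2, hEc])]
    exact Subgroup.map_subtype_le _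
  -- the quotient by `E` is not cyclic
  have hqnc : ¬ IsCyclic (L ⧸ E) := by
    intro hq
    obtain ⟨g, hg⟩ := hq.exists_generator
    obtain ⟨y, rfl⟩ := QuotientGroup.mk'_surjective E g
    have : Subgroup.zpowers y = ⊤ := by
      apply frattini_nongenerating
      refine top_le_iff.mp fun z _ => ?_
      obtain ⟨i, hi⟩ := Subgroup.mem_zpowers_iff.mp (hg (QuotientGroup.mk' E z))
      rw [← map_zpow] at hi
      have hz : (y ^ i)⁻¹ * z ∈ frattini L := hEΦ (QuotientGroup.eq.mp hi)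
      simpa using Subgroup.mul_mem _
        (Subgroup.mem_sup_left (Subgroup.zpow_mem _ (Subgroup.mem_zpowers y) i))
        (Subgroup.mem_sup_right hz)
    exact not_isCyclic_of_no_cyclic_maximal hL hne hnc ⟨y, fun z => by
      have hz : z ∈ Subgroup.zpowers y := this ▸ Subgroup.mem_top z
      exact hz⟩
  obtain ⟨hQe, hQc⟩ := Cfsg.Agent.S0638.result hp2 (hL.to_quotient E)
    (BGAppendix.isMetacyclic_quotient hmc E) hqnc
  set M := (Cfsg.omegaOne p (⊤ : Subgroup (L ⧸ E))).comap (QuotientGroup.mk' E) with hM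
  have hMmem : ∀ x, x ∈ M ↔ (x ^ p) ^ p = 1 := by
    intro x
    have hq : QuotientGroup.mk' E x ^ p = 1 ↔ (x ^ p) ^ p = 1 := by
      rw [← hmem, ← map_pow]; exact QuotientGroup.eq_one_iff _
    exact ⟨fun h => hq.mp (hQe.2 _ (Subgroup.mem_comap.mp h)),
      fun h => Subgroup.subset_closure ⟨Subgroup.mem_top _, hq.mpr h⟩⟩
  -- commutators in `M` are central of order dividing `p`
  have hcomm : ∀ x ∈ M, ∀ y ∈ M, ⁅x, y⁆ ∈ Subgroup.center L ∧ ⁅x, y⁆ ^ p = 1 := by
    intro x hx y hy
    obtain ⟨N, hN, hNc, hQ⟩ := hmc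
    have hcE : ⁅x, y⁆ ∈ E := by
      refine (QuotientGroup.eq_one_iff _).mp ?_
      show QuotientGroup.mk' E ⁅x, y⁆ = 1
      rw [map_commutatorElement, commutatorElement_eq_one_iff_mul_comm]
      exact congrArg Subtype.val (hQe.1.is_comm.comm ⟨_, hx⟩ ⟨_, hy⟩)
    have hcN : ⁅x, y⁆ ∈ N := by
      refine (QuotientGroup.eq_one_iff _).mp ?_
      show QuotientGroup.mk' N ⁅x, y⁆ = 1
      rw [map_commutatorElement, commutatorElement_eq_one_iff_mul_comm]
      obtain ⟨g, hg⟩ := hQ.exists_generator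
      obtain ⟨i, hi⟩ := Subgroup.mem_zpowers_iff.mp (hg (QuotientGroup.mk' N x))
      obtain ⟨j, hj⟩ := Subgroup.mem_zpowers_iff.mp (hg (QuotientGroup.mk' N y))
      rw [← hi, ← hj]
      exact ((Commute.refl g).zpow_zpow i j).eq
    refine ⟨?_, (hmem _).mp hcE⟩
    have : IsCyclic ↥(E ⊓ N) :=
      isCyclic_of_injective (Subgroup.inclusion inf_le_right) (Subgroup.inclusion_injective _)
    obtain ⟨g, hg⟩ := IsCyclic.exists_generator (α := ↥(E ⊓ N))
    have hdvd : Nat.card ↥(E ⊓ N) ∣ p := by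
      rw [← orderOf_eq_card_of_forall_mem_zpowers hg]
      exact orderOf_dvd_of_pow_eq_one (Subtype.ext (by simpa using (hmem _).mp g.2.1))
    rcases (Nat.dvd_prime hp.out).mp hdvd with h | h
    · have h' : ⁅x, y⁆ ∈ (⊥ : Subgroup L) := Subgroup.eq_bot_of_card_eq _ h ▸ ⟨hcE, hcN⟩
      rw [Subgroup.mem_bot.mp h']
      exact one_mem _
    · exact PGroups.le_center_of_card_eq_prime hL h ⟨hcE, hcN⟩
  have hmul : ∀ x ∈ M, ∀ y ∈ M, (x * y) ^ p = x ^ p * y ^ p := fun x hx y hy =>
    PGroups.mul_pow_of_central_odd (hcomm y hy x hx).1 (PGroups.odd_prime hp2) (hcomm y hy x hx).2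
  let φ : M →* E :=
    { toFun := fun x => ⟨(x : L) ^ p, (hmem _).mpr ((hMmem x).mp x.2)⟩
      map_one' := Subtype.ext (one_pow p)
      map_mul' := fun x y => Subtype.ext (hmul x x.2 y y.2) }
  have hEM : E ≤ M := fun x hx => (hMmem x).mpr (by rw [(hmem x).mp hx, one_pow])
  have hMc : Nat.card M = p ^ 4 := by
    have h := Subgroup.relIndex_mul_relIndex ⊥ E M bot_le hEM
    have h' : E.relIndex M = p ^ 2 := by
      rw [← QuotientGroup.ker_mk' E, ← MonoidHom.comap_bot, Subgroup.relIndex_comap, hM,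
        Subgroup.map_comap_eq_self_of_surjective (QuotientGroup.mk'_surjective _),
        Subgroup.relIndex_bot_left, hQc]
    rw [Subgroup.relIndex_bot_left, Subgroup.relIndex_bot_left, hEc, h'] at h
    rw [← h]; ring
  have hker : φ.ker = E.subgroupOf M := by
    ext x
    rw [MonoidHom.mem_ker, Subgroup.mem_subgroupOf, hmem]
    exact ⟨fun h => congrArg Subtype.val h, fun h => Subtype.ext h⟩
  have hrange : φ.range = ⊤ := by
    refine Subgroup.eq_top_of_card_eq _ ?_
    have h := Subgroup.card_eq_card_quotient_mul_card_subgroup φ.ker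
    rw [Nat.card_congr (QuotientGroup.quotientKerEquivRange φ).toEquiv] at h
    rw [hker, Nat.card_congr (Subgroup.subgroupOfEquivOfLe hEM).toEquiv, hMc, hEc] at h
    rw [hEc]
    exact (Nat.eq_of_mul_eq_mul_right (pow_pos hp.out.pos 2) (by rw [← h]; ring))
  have hpow : ∀ e ∈ E, ∃ x ∈ M, x ^ p = e := fun e he => by
    obtain ⟨x, hx⟩ := hrange.ge (Subgroup.mem_top (⟨e, he⟩ : E))
    exact ⟨x, x.2, congrArg Subtype.val hx⟩
  refine ⟨E, hmem, hEe, hEc, hEΦ, fun e he => ?_,
    fun x y hx hy => hmul x ((hMmem x).mpr hx) y ((hMmem y).mpr hy), fun e he x hx => ?_, ?_⟩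
  · obtain ⟨x, -, hx⟩ := hpow e he
    exact ⟨x, hx⟩
  · obtain ⟨h, hh, rfl⟩ := hpow e he
    obtain ⟨hc, hcp⟩ := hcomm h hh x ((hMmem x).mpr hx)
    rw [eq_comm, ← commutatorElement_eq_one_iff_mul_comm, PGroups.commutatorElement_pow_left hc, hcp]
  · exact hMc ▸ Subgroup.card_le_card_group M

end CfsgLib.Subnormal
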