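/-
For odd `p`: a `p`-group whose elements of order `p` are central needs no more generators than its
elements of order dividing `p` do.
-/
import Mathlib
import Cfsg.Agent.Lib.PGroups.ClassTwo
import Cfsg.Agent.Lib.PGroups.Frattini

set_option autoImplicit false
set_option linter.style.haveILetI false

open scoped commutatorElement

namespace CfsgLib.Subnormal

universe u

variable {H : Type u} [Group H]

/-- Elements of order dividing `p` are central. -/
def OmegaCentral (p : ℕ) (H : Type u) [Group H] : Prop :=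
  ∀ x : H, x ^ p = 1 → x ∈ Subgroup.center H

variable [Finite H] {p : ℕ} [hp : Fact p.Prime]

/-- In a nilpotent group a supplement of the derived group is everything. -/
theorem eq_top_of_sup_commutator_eq_top (hH : IsPGroup p H) {L : Subgroup H}
    (h : L ⊔ commutator H = ⊤) : L = ⊤ :=
  frattini_nongenerating (le_antisymm le_top
    (h.symm.le.trans (sup_le_sup_left (PGroups.commutator_le_frattini hH) L)))

/-- `x ^ p` of order dividing `p` forces `⁅x, h⁆ ^ p = 1`. -/
theorem commutator_pow_eq_one (hp2 : p ≠ 2) (hH : IsPGroup p H) (hc : OmegaCentral p H) {x : H}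
    (hx : (x ^ p) ^ p = 1) (g : H) : ⁅x, g⁆ ^ p = 1 := by
  have hodd : Odd p := hp.out.odd_of_ne_two hp2
  suffices main : ∀ n (L : Subgroup H), Nat.card L = n → ∀ x ∈ L, ∀ g ∈ L, (x ^ p) ^ p = 1 →
      ⁅x, g⁆ ^ p = 1 from main _ ⊤ rfl x trivial g trivial hx
  intro n
  induction n using Nat.strong_induction_on with
  | _ n ih =>
  intro L hn x hxL g hgL hxp
  have hxc : x ^ p ∈ Subgroup.center H := hc _ hxp
  set y := g * x * g⁻¹ with hy
  have hyp : y ^ p = x ^ p := by
    rw [hy, conj_pow, (Subgroup.mem_center_iff.mp hxc g), mul_inv_cancel_right]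
  set M := Subgroup.closure ({x, y} : Set H) with hM
  have hxM : x ∈ M := Subgroup.subset_closure (by simp)
  have hyM : y ∈ M := Subgroup.subset_closure (by simp)
  have hML : M ≤ L := (Subgroup.closure_le L).mpr (by
    rintro z (hz | hz)
    · exact hz ▸ hxL
    · exact hz ▸ L.mul_mem (L.mul_mem hgL hxL) (L.inv_mem hgL))
  rcases eq_or_lt_of_le hML with heq | hlt
  · -- `L` is generated by `x` modulo its derived group, so it is cyclic
    have htop : (Subgroup.zpowers (⟨x, hxL⟩ : L)) ⊔ commutator L = ⊤ := by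
      apply top_le_iff.mp
      rintro ⟨z, hz⟩ -
      have hzM : z ∈ ((Subgroup.zpowers (⟨x, hxL⟩ : L)) ⊔ commutator L).map L.subtype := by
        rw [← heq, hM] at hz
        refine (Subgroup.closure_le _).mpr ?_ hz
        rintro w (hw | hw) <;> rw [hw]
        · exact ⟨⟨x, hxL⟩, Subgroup.mem_sup_left (Subgroup.mem_zpowers _), rfl⟩
        · refine ⟨⁅(⟨g, hgL⟩ : L), ⟨x, hxL⟩⁆ * ⟨x, hxL⟩, ?_, ?_⟩
          · exact Subgroup.mul_mem _ (Subgroup.mem_sup_right
              (Subgroup.commutator_mem_commutator trivial trivial))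
              (Subgroup.mem_sup_left (Subgroup.mem_zpowers _))
          · simp [hy, commutatorElement_def]
      obtain ⟨w, hw, hwz⟩ := hzM
      obtain rfl : w = ⟨z, hz⟩ := Subtype.ext hwz
      exact hw
    have hcyc := eq_top_of_sup_commutator_eq_top (hH.to_subgroup L) htop
    obtain ⟨i, hi⟩ := Subgroup.mem_zpowers_iff.mp
      (hcyc.ge (Subgroup.mem_top (⟨g, hgL⟩ : L)))
    have hg : x ^ i = g := congrArg Subtype.val hi
    rw [← hg, commutatorElement_eq_one_iff_commute.mpr ((Commute.refl x).zpow_right i), one_pow]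
  · have hcard : Nat.card M < n := by
      refine hn ▸ lt_of_le_of_ne (Subgroup.card_le_of_le hlt.le) fun he => ?_
      exact hlt.ne (Subgroup.eq_of_le_of_card_ge hlt.le he.ge)
    have hcp : ⁅y, x⁆ ^ p = 1 := ih _ hcard M rfl y hyM x hxM (by rw [hyp]; exact hxp)
    have hcc : ⁅y, x⁆ ∈ Subgroup.center H := hc _ hcp
    have hc1 : ⁅x⁻¹, y⁆ = ⁅y, x⁆ := by
      calc ⁅x⁻¹, y⁆ = x⁻¹ * (⁅y, x⁆ * x) := by simp [commutatorElement_def, mul_assoc]
        _ = _ := by rw [← Subgroup.mem_center_iff.mp hcc x, inv_mul_cancel_left]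
    have hpow : (y * x⁻¹) ^ p = 1 := by
      rw [PGroups.mul_pow_of_central_odd (hc1 ▸ hcc) hodd (hc1 ▸ hcp), hyp, inv_pow, mul_inv_cancel]
    have : ⁅x, g⁆ = (y * x⁻¹)⁻¹ := by simp [hy, commutatorElement_def, mul_assoc]
    rw [this, inv_pow, hpow, inv_one]

/-- **Generators of a `p`-group with central elements of order `p`**, `p` odd. -/
theorem exists_generators_of_omegaCentral (hp2 : p ≠ 2) (hH : IsPGroup p H) (hc : OmegaCentral p H)
    {r : ℕ} (hr : Nat.card {x : H // x ^ p = 1} ≤ p ^ r) :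
    ∃ S : Finset H, S.card ≤ r ∧ Subgroup.closure (S : Set H) = ⊤ := by
  classical
  suffices main : ∀ n, ∀ {H : Type u} [Group H] [Finite H], Nat.card H = n → IsPGroup p H →
      OmegaCentral p H → ∀ r : ℕ, Nat.card {x : H // x ^ p = 1} ≤ p ^ r →
      ∃ S : Finset H, S.card ≤ r ∧ Subgroup.closure (S : Set H) = ⊤ from main _ rfl hH hc r hr
  intro n
  induction n using Nat.strong_induction_on with
  | _ n ih =>
  intro H _ _ hn hH hc r hr
  classical
  have hodd : Odd p := hp.out.odd_of_ne_two hp2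
  let M : Subgroup H :=
    { carrier := {x | x ^ p = 1}
      one_mem' := one_pow p
      mul_mem' := fun {a b} (ha : a ^ p = 1) (hb : b ^ p = 1) => by
        show (a * b) ^ p = 1
        rw [(show Commute a b from (Subgroup.mem_center_iff.mp (hc a ha) b).symm).mul_pow, ha, hb, one_mul]
      inv_mem' := fun {a} (ha : a ^ p = 1) => show a⁻¹ ^ p = 1 by rw [inv_pow, ha, inv_one] }
  have hMr : Nat.card M ≤ p ^ r := hr
  have hMc : M ≤ Subgroup.center H := fun x hx => hc x hx
  haveI hMn : M.Normal := ⟨fun x hx g => by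
    rw [Subgroup.mem_center_iff.mp (hMc hx) g, mul_inv_cancel_right]; exact hx⟩
  by_cases hsub : Subsingleton H
  · exact ⟨∅, Nat.zero_le _, Subsingleton.elim _ _⟩
  rw [not_subsingleton_iff_nontrivial] at hsub
  obtain ⟨m₀, hm₀⟩ : ∃ m : H, orderOf m = p := by
    obtain ⟨k, hk0, hk⟩ := hH.nontrivial_iff_card.mp hsub
    exact exists_prime_orderOf_dvd_card' p (hk ▸ dvd_pow_self p (by omega))
  have hM1 : 1 < Nat.card M := by
    rw [Finite.one_lt_card_iff_nontrivial, Subgroup.nontrivial_iff_ne_bot]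
    intro hb
    have : m₀ ∈ M := show m₀ ^ p = 1 by rw [← hm₀, pow_orderOf_eq_one]
    rw [hb, Subgroup.mem_bot] at this
    rw [this, orderOf_one] at hm₀
    exact hp.out.ne_one hm₀.symm
  by_cases hMF : M ≤ frattini H
  · have hcq : OmegaCentral p (H ⧸ M) := by
      intro q hq
      obtain ⟨x, rfl⟩ := QuotientGroup.mk'_surjective M q
      rw [← map_pow] at hq
      have hxp : (x ^ p) ^ p = 1 := (QuotientGroup.eq_one_iff _).mp hq
      refine Subgroup.mem_center_iff.mpr fun q' => ?_
      obtain ⟨g, rfl⟩ := QuotientGroup.mk'_surjective M q'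
      rw [← commutatorElement_eq_one_iff_mul_comm, ← map_commutatorElement]
      refine (QuotientGroup.eq_one_iff _).mpr (show ⁅g, x⁆ ^ p = 1 from ?_)
      rw [← commutatorElement_inv, inv_pow, commutator_pow_eq_one hp2 hH hc hxp g, inv_one]
    have hrq : Nat.card {q : H ⧸ M // q ^ p = 1} ≤ p ^ r := by
      have hrep : ∀ q : {q : H ⧸ M // q ^ p = 1}, ∃ x : H, QuotientGroup.mk' M x = q.1 ∧ x ^ p ∈ M := by
        rintro ⟨q, hq⟩
        obtain ⟨x, rfl⟩ := QuotientGroup.mk'_surjective M q
        rw [← map_pow] at hq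
        exact ⟨x, rfl, (QuotientGroup.eq_one_iff _).mp hq⟩
      choose f hf1 hf2 using hrep
      refine le_trans (Nat.card_le_card_of_injective (fun q => (⟨f q ^ p, hf2 q⟩ : M)) ?_) hMr
      intro q q' hqq
      have hpp : f q ^ p = f q' ^ p := congrArg Subtype.val hqq
      refine Subtype.ext ?_
      rw [← hf1 q, ← hf1 q']
      refine QuotientGroup.eq.mpr (show ((f q)⁻¹ * f q') ^ p = 1 from ?_)
      have hcp : ⁅f q', (f q)⁻¹⁆ ^ p = 1 := commutator_pow_eq_one hp2 hH hc (hf2 q') _
      rw [PGroups.mul_pow_of_central_odd (hc _ hcp) hodd hcp, inv_pow, hpp, inv_mul_cancel]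
    obtain ⟨S, hS, hStop⟩ := ih (Nat.card (H ⧸ M))
      (by
        rw [← hn, Subgroup.card_eq_card_quotient_mul_card_subgroup M]
        exact lt_mul_of_one_lt_right Nat.card_pos hM1)
      rfl (hH.to_quotient M) hcq r hrq
    refine ⟨S.image Quotient.out, Finset.card_image_le.trans hS, frattini_nongenerating ?_⟩
    set T := Subgroup.closure ((S.image Quotient.out : Finset H) : Set H)
    have hT : T.map (QuotientGroup.mk' M) = ⊤ := by
      rw [← hStop, MonoidHom.map_closure]
      congr 1
      rw [Finset.coe_image, ← Set.image_comp]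
      simp
    refine top_le_iff.mp (le_trans ?_ (sup_le_sup_left hMF T))
    intro z _
    have hz : z ∈ (T.map (QuotientGroup.mk' M)).comap (QuotientGroup.mk' M) := by
      rw [hT]; trivial
    rwa [Subgroup.comap_map_eq, QuotientGroup.ker_mk'] at hz
  · obtain ⟨K, hK, hMK⟩ : ∃ K : Subgroup H, IsCoatom K ∧ ¬ M ≤ K := by
      by_contra hall
      push Not at hall
      exact hMF (le_iInf₂ fun K hK => hall K hK)
    obtain ⟨m, hm, hmK⟩ := SetLike.not_le_iff_exists.mp hMK
    have hKm : K ⊔ Subgroup.zpowers m = ⊤ :=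
      hK.2 _ (left_lt_sup.mpr fun h => hmK (h (Subgroup.mem_zpowers m)))
    have hcK : OmegaCentral p K := fun x hx => Subgroup.mem_center_iff.mpr fun y => Subtype.ext
      (Subgroup.mem_center_iff.mp (hc x (by simpa using congrArg Subtype.val hx)) y)
    rcases r with _ | r
    · simp at hMr; omega
    have hrK : Nat.card {x : K // x ^ p = 1} ≤ p ^ r := by
      have hle : Nat.card {x : K // x ^ p = 1} ≤ Nat.card ↥(K ⊓ M) :=
        Nat.card_le_card_of_injective (fun x => (⟨x.1.1, x.1.2,
          show (x.1.1) ^ p = 1 by simpa using congrArg Subtype.val x.2⟩ : ↥(K ⊓ M)))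
          fun x y hxy => Subtype.ext (Subtype.ext (congrArg (fun z : ↥(K ⊓ M) => (z : H)) hxy))
      have hlt : K ⊓ M < M := lt_of_le_of_ne inf_le_right fun h => hMK (inf_eq_right.mp h)
      obtain ⟨a, ha⟩ := IsPGroup.iff_card.mp (hH.to_subgroup (K ⊓ M))
      obtain ⟨b, hb⟩ := IsPGroup.iff_card.mp (hH.to_subgroup M)
      have hab : a < b := by
        refine (Nat.pow_lt_pow_iff_right hp.out.one_lt).mp ?_
        rw [← ha, ← hb]
        exact lt_of_le_of_ne (Subgroup.card_le_of_le hlt.le)
          fun he => hlt.ne (Subgroup.eq_of_le_of_card_ge hlt.le he.ge)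
      have hbr : b ≤ r + 1 := (Nat.pow_le_pow_iff_right hp.out.one_lt).mp (hb ▸ hMr)
      exact hle.trans (ha ▸ Nat.pow_le_pow_right hp.out.pos (by omega))
    obtain ⟨S, hS, hStop⟩ := ih (Nat.card K)
      (by
        refine hn ▸ lt_of_le_of_ne (Subgroup.card_le_card_group K) fun h => hK.1 ?_
        exact Subgroup.eq_top_of_card_eq K h)
      rfl (hH.to_subgroup K) hcK r hrK
    refine ⟨insert m (S.image Subtype.val), (Finset.card_insert_le _ _).trans
      (Nat.succ_le_succ (Finset.card_image_le.trans hS)), top_le_iff.mp ?_⟩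
    rw [← hKm]
    refine sup_le ?_ (Subgroup.zpowers_le.mpr (Subgroup.subset_closure (by simp)))
    have : K = (Subgroup.closure (S : Set K)).map K.subtype := by
      rw [hStop, ← MonoidHom.range_eq_map, Subgroup.range_subtype]
    refine le_trans this.le ?_
    rw [MonoidHom.map_closure]
    exact Subgroup.closure_mono (by simp)

end CfsgLib.Subnormal
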