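import Mathlib.RingTheory.AdjoinRoot
import Mathlib.Algebra.Module.ZMod
import Mathlib.FieldTheory.Finite.Basic
import Mathlib.FieldTheory.Minpoly.Field
import Mathlib.LinearAlgebra.Basis.VectorSpace
import Mathlib.LinearAlgebra.Dimension.Free
import Mathlib.LinearAlgebra.FiniteDimensional.Lemmas

/-!
A fixed-point-free linear map of prime order `q` of a finite vector space over `ZMod p` all of
whose cyclic subspaces are minimal and which is conjugate to each of its powers `T ^ i`: then `p`
is a primitive root modulo `q`; conversely, transitivity of the semilinear maps.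
-/

namespace CfsgLib.Subnormal.PrimitiveRoot

open Polynomial

variable {p q : ℕ} [hp : Fact p.Prime] [hq : Fact q.Prime]

local notation "F" => ZMod p

theorem natCast_ne_zero (hne : p ≠ q) : (p : ZMod q) ≠ 0 := fun h =>
  hne ((Nat.prime_dvd_prime_iff_eq hq.out hp.out).mp ((ZMod.natCast_eq_zero_iff p q).mp h)).symm

theorem orderOf_dvd (hne : p ≠ q) : orderOf (p : ZMod q) ∣ q - 1 :=
  orderOf_dvd_of_pow_eq_one (ZMod.pow_card_sub_one_eq_one (natCast_ne_zero hne))

theorem orderOf_pos' (hne : p ≠ q) : 0 < orderOf (p : ZMod q) := by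
  rw [orderOf_pos_iff, isOfFinOrder_iff_pow_eq_one]
  exact ⟨q - 1, by have := hq.out.two_le; omega,
    ZMod.pow_card_sub_one_eq_one (natCast_ne_zero hne)⟩

/-- If a root of an irreducible polynomial of degree `d` has order `q`, then `d` is the order of
`p` modulo `q`. -/
theorem natDegree_eq_orderOf (hne : p ≠ q) {f : F[X]} [hf : Fact (Irreducible f)]
    (ht1 : AdjoinRoot.root f ≠ 1) (htq : AdjoinRoot.root f ^ q = 1) :
    f.natDegree = orderOf (p : ZMod q) := by
  have hf0 : f ≠ 0 := hf.out.ne_zero
  have hfin : Module.Finite F (AdjoinRoot f) := (AdjoinRoot.powerBasis hf0).finite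
  have : Finite (AdjoinRoot f) := Module.finite_of_finite F
  let := Fintype.ofFinite (AdjoinRoot f)
  have hcard : Fintype.card (AdjoinRoot f) = p ^ f.natDegree := by
    rw [Module.card_eq_pow_finrank (K := F), ZMod.card, (AdjoinRoot.powerBasis hf0).finrank,
      AdjoinRoot.powerBasis_dim]
  set t := AdjoinRoot.root f with ht
  have hord : orderOf t = q := orderOf_eq_prime htq ht1
  have ht0 : t ≠ 0 := fun h => by
    rw [h, zero_pow hq.out.ne_zero] at htq
    exact zero_ne_one htq
  set e := orderOf (p : ZMod q)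
  have hed : e ∣ f.natDegree := by
    apply orderOf_dvd_of_pow_eq_one
    have h1 := orderOf_dvd_of_pow_eq_one (FiniteField.pow_card_sub_one_eq_one t ht0)
    rw [hord, hcard, ← ZMod.natCast_eq_zero_iff,
      Nat.cast_sub (Nat.one_le_pow _ _ hp.out.pos), sub_eq_zero] at h1
    simpa using h1
  have hd0 : 0 < f.natDegree := hf.out.natDegree_pos
  refine le_antisymm ?_ (Nat.le_of_dvd hd0 hed)
  have he0 : 0 < e := orderOf_pos' hne
  have htp : t ^ (p ^ e) = t := by
    have h1 : p ^ e ≡ 1 [MOD q] := by
      rw [← ZMod.natCast_eq_natCast_iff]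
      push_cast
      exact pow_orderOf_eq_one _
    rw [← pow_mod_orderOf, hord, h1, Nat.mod_eq_of_lt hq.out.one_lt, pow_one]
  have : CharP (AdjoinRoot f) p :=
    charP_of_injective_algebraMap (algebraMap F (AdjoinRoot f)).injective p
  have hfix : ∀ y : AdjoinRoot f, y ^ (p ^ e) = y := by
    intro y
    induction y using AdjoinRoot.induction_on with
    | ih h =>
      rw [← AdjoinRoot.aeval_eq]
      have h2 : (iterateFrobenius (AdjoinRoot f) p e).comp (algebraMap F (AdjoinRoot f)) =
          algebraMap F (AdjoinRoot f) := Subsingleton.elim _ _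
      calc (aeval t h) ^ (p ^ e) = iterateFrobenius (AdjoinRoot f) p e (aeval t h) := rfl
        _ = eval₂ ((iterateFrobenius (AdjoinRoot f) p e).comp (algebraMap F _))
            (iterateFrobenius (AdjoinRoot f) p e t) h := by rw [aeval_def, hom_eval₂]
        _ = aeval t h := by rw [h2, iterateFrobenius_def, htp, aeval_def]
  by_contra hlt
  have hpe : 1 < p ^ e := Nat.one_lt_pow he0.ne' hp.out.one_lt
  have hne0 : (X ^ (p ^ e) - X : (AdjoinRoot f)[X]) ≠ 0 :=
    FiniteField.X_pow_card_sub_X_ne_zero _ hpe
  have hdeg : (Finset.univ : Finset (AdjoinRoot f)).card ≤ p ^ e := by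
    classical
    refine (Finset.card_le_card (t := (X ^ (p ^ e) - X : (AdjoinRoot f)[X]).roots.toFinset)
      fun y _ => ?_).trans ?_
    · rw [Multiset.mem_toFinset, mem_roots hne0]
      simp [hfix]
    · refine (Multiset.toFinset_card_le _).trans ((card_roots' _).trans ?_)
      rw [FiniteField.X_pow_card_sub_X_natDegree_eq _ hpe]
  rw [Finset.card_univ, hcard] at hdeg
  exact hlt ((Nat.pow_le_pow_iff_right hp.out.one_lt).mp hdeg)

variable (p q) in
/-- `1 + X + ⋯ + X ^ (q - 1)` over `ZMod p`. -/
noncomputable def geom : F[X] := ∑ i ∈ Finset.range q, X ^ i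

theorem geom_mul : geom p q * (X - 1) = X ^ q - 1 := geom_sum_mul X q

theorem natDegree_geom_le : (geom p q).natDegree ≤ q - 1 :=
  natDegree_sum_le_of_forall_le _ _ fun i hi => by
    rw [natDegree_X_pow]
    have := Finset.mem_range.mp hi
    omega

theorem geom_eval_one : (geom p q).eval 1 = (q : F) := by
  simp [geom, eval_finsetSum]

theorem geom_ne_zero (hne : p ≠ q) : geom p q ≠ 0 := fun h => by
  have := geom_eval_one (p := p) (q := q)
  rw [h, eval_zero, eq_comm] at this
  exact natCast_ne_zero (p := q) (q := p) hne.symm this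

theorem irreducible_geom (hne : p ≠ q) (hord : orderOf (p : ZMod q) = q - 1) :
    Irreducible (geom p q) := by
  have h0 : geom p q ≠ 0 := geom_ne_zero hne
  have h1 : ¬ IsUnit (geom p q) := fun h => by
    have := congrArg natDegree (geom_mul (p := p) (q := q))
    rw [← C_1, natDegree_mul h0 (X_sub_C_ne_zero 1), natDegree_X_sub_C,
      natDegree_eq_zero_of_isUnit h, natDegree_X_pow_sub_C] at this
    have := hq.out.two_le
    omega
  obtain ⟨f, hf, hfdvd⟩ := WfDvdMonoid.exists_irreducible_factor h1 h0
  have := Fact.mk hf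
  have hz : aeval (AdjoinRoot.root f) (geom p q) = 0 := by
    rw [AdjoinRoot.aeval_eq, AdjoinRoot.mk_eq_zero]
    exact hfdvd
  have htq : AdjoinRoot.root f ^ q = 1 := by
    have := congrArg (aeval (AdjoinRoot.root f)) (geom_mul (p := p) (q := q))
    simp only [map_mul, hz, zero_mul, map_sub, map_pow, aeval_X, map_one] at this
    exact sub_eq_zero.mp this.symm
  have ht1 : AdjoinRoot.root f ≠ 1 := by
    intro h
    rw [h, ← map_one (algebraMap F (AdjoinRoot f)), aeval_algebraMap_apply_eq_algebraMap_eval,
      geom_eval_one, map_eq_zero] at hz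
    exact natCast_ne_zero (p := q) (q := p) hne.symm hz
  have hd := natDegree_eq_orderOf (q := q) hne ht1 htq
  rw [hord] at hd
  exact (associated_of_dvd_of_natDegree_le hfdvd h0
    (natDegree_geom_le.trans hd.ge)).irreducible hf

variable {V : Type*} [AddCommGroup V] [Module (ZMod p) V] [Finite V]

omit [Finite V] hq in
theorem pow_conj {T : Module.End F V} {σ : V ≃+ V} {i : ℕ}
    (h : ∀ v, σ (T v) = (T ^ i) (σ v)) (n : ℕ) (v : V) : σ ((T ^ n) v) = ((T ^ i) ^ n) (σ v) := by
  induction n generalizing v with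
  | zero => rfl
  | succ n ih => rw [pow_succ, Module.End.mul_apply, ih, h, pow_succ, Module.End.mul_apply]

omit [Finite V] hq in
theorem aeval_conj {T : Module.End F V} {σ : V ≃+ V} {i : ℕ}
    (h : ∀ v, σ (T v) = (T ^ i) (σ v)) (g : F[X]) (v : V) :
    σ (aeval T g v) = aeval (T ^ i) g (σ v) := by
  induction g using Polynomial.induction_on' with
  | add a b ha hb => simp [ha, hb]
  | monomial n c =>
    simp only [aeval_monomial, Module.algebraMap_end_apply, Module.End.mul_apply]
    rw [ZMod.map_smul σ c, pow_conj h]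

/-- The forward direction: `p` is a primitive root modulo `q`. -/
theorem orderOf_eq (hne : p ≠ q) [Nontrivial V] (T : Module.End F V) (hT : T ^ q = 1)
    (hT1 : T ≠ 1)
    (hmin : ∀ (v : V) (h : F[X]), aeval T h v ≠ 0 → ∃ k : F[X], aeval T k (aeval T h v) = v)
    (hconj : ∀ i : ℕ, 1 ≤ i → i < q → ∃ σ : V ≃+ V, ∀ v, σ (T v) = (T ^ i) (σ v)) :
    orderOf (p : ZMod q) = q - 1 := by
  have hint : IsIntegral F T := Algebra.IsIntegral.isIntegral T
  set μ := minpoly F T with hμ
  have hμ0 : μ ≠ 0 := minpoly.ne_zero hint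
  have hμa : aeval T μ = 0 := minpoly.aeval F T
  -- the minimal polynomial is irreducible
  have hμirr : Irreducible μ := by
    obtain ⟨f, hf, g, hfg⟩ := WfDvdMonoid.exists_irreducible_factor (minpoly.not_isUnit F T) hμ0
    have hg0 : g ≠ 0 := fun h => hμ0 (by rw [hμ, hfg, h, mul_zero])
    have hgdeg : g.natDegree < μ.natDegree := by
      rw [hμ, hfg, natDegree_mul hf.ne_zero hg0]
      have := hf.natDegree_pos
      omega
    have hg : aeval T g ≠ 0 := fun h => by
      have := natDegree_le_of_dvd (minpoly.dvd F T h) hg0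
      rw [← hμ] at this
      omega
    have hmuf : ∀ v, aeval T f (aeval T g v) = 0 := fun v => by
      rw [← Module.End.mul_apply, ← map_mul, ← hfg, minpoly.aeval]; rfl
    by_cases hW : aeval T f = 0
    · have hdvd : μ ∣ f := minpoly.dvd F T hW
      rcases hf.dvd_iff.mp hdvd with h | h
      · exact absurd h (minpoly.not_isUnit F T)
      · exact h.irreducible hf
    exfalso
    apply hg
    have key : ∀ v, aeval T f v ≠ 0 → aeval T g v = 0 := by
      intro v hv
      by_contra hgv
      obtain ⟨k, hk⟩ := hmin v g hgv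
      apply hv
      calc aeval T f v = aeval T f (aeval T k (aeval T g v)) := by rw [hk]
        _ = aeval T k (aeval T f (aeval T g v)) := by
          rw [← Module.End.mul_apply, ← Module.End.mul_apply, ← map_mul, mul_comm, map_mul]
          rfl
        _ = 0 := by rw [hmuf, map_zero]
    obtain ⟨u, hu⟩ : ∃ u, aeval T f u ≠ 0 := by
      by_contra hcon
      push Not at hcon
      exact hW (LinearMap.ext hcon)
    refine LinearMap.ext fun v => ?_
    by_cases hv : aeval T f v = 0
    · have h1 := key (v + u) (by rw [map_add, hv, zero_add]; exact hu)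
      rw [map_add, key u hu, add_zero] at h1
      exact h1
    · exact key v hv
  have := Fact.mk hμirr
  set t := AdjoinRoot.root μ with ht
  have hz : ∀ g : F[X], aeval T g = 0 → aeval t g = 0 := fun g hg => by
    rw [ht, AdjoinRoot.aeval_eq, AdjoinRoot.mk_eq_zero]
    exact minpoly.dvd F T hg
  have htq : t ^ q = 1 := by
    have := hz (X ^ q - 1) (by simp [hT])
    simpa [sub_eq_zero] using this
  have ht1 : t ≠ 1 := by
    intro h
    have h1 : μ ∣ X - 1 := by
      rw [← AdjoinRoot.mk_eq_zero, ← AdjoinRoot.aeval_eq, map_sub, aeval_X, map_one, ← ht, h,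
        sub_self]
    have := aeval_eq_zero_of_dvd_aeval_eq_zero h1 hμa
    simp only [map_sub, aeval_X, map_one, sub_eq_zero] at this
    exact hT1 this
  have hd := natDegree_eq_orderOf (q := q) hne ht1 htq
  refine le_antisymm (Nat.le_of_dvd (by have := hq.out.two_le; omega) (orderOf_dvd hne)) ?_
  rw [← hd]
  -- the powers of `t` are `q - 1` distinct roots of `μ`
  classical
  have hinj : Set.InjOn (fun i : ℕ => t ^ i) (Finset.Ico 1 q : Set ℕ) := by
    refine (pow_injOn_Iio_orderOf (x := t)).mono ?_
    rw [orderOf_eq_prime htq ht1]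
    intro i hi
    exact (Finset.mem_Ico.mp hi).2
  have hmap : μ.map (algebraMap F (AdjoinRoot μ)) ≠ 0 := map_ne_zero hμ0
  calc q - 1 = (Finset.Ico 1 q).card := (Nat.card_Ico 1 q).symm
    _ = ((Finset.Ico 1 q).image fun i => t ^ i).card := (Finset.card_image_of_injOn hinj).symm
    _ ≤ (μ.map (algebraMap F (AdjoinRoot μ))).roots.toFinset.card := by
        refine Finset.card_le_card fun y hy => ?_
        obtain ⟨i, hi, rfl⟩ := Finset.mem_image.mp hy
        rw [Multiset.mem_toFinset, mem_roots hmap, IsRoot, eval_map_algebraMap]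
        obtain ⟨σ, hσ⟩ := hconj i (Finset.mem_Ico.mp hi).1 (Finset.mem_Ico.mp hi).2
        have h1 : aeval (T ^ i) μ = 0 := LinearMap.ext fun v => by
          obtain ⟨w, rfl⟩ := σ.surjective v
          rw [← aeval_conj hσ, hμa]
          simp
        have := hz (μ.comp (X ^ i)) (by rw [aeval_comp, map_pow, aeval_X, h1])
        rwa [aeval_comp, map_pow, aeval_X] at this
    _ ≤ μ.natDegree := (Multiset.toFinset_card_le _).trans ((card_roots' _).trans natDegree_map_le)

/-- Any two non-zero vectors of finite vector spaces of the same cardinality correspond under a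
linear equivalence. -/
theorem exists_equiv_apply_eq {K V W : Type*} [Field K] [AddCommGroup V] [AddCommGroup W]
    [Module K V] [Module K W] [Finite K] [Finite V] [Finite W] (hc : Nat.card V = Nat.card W)
    {v : V} {w : W} (hv : v ≠ 0) (hw : w ≠ 0) : ∃ e : V ≃ₗ[K] W, e v = w := by
  classical
  have hv' : LinearIndepOn K id ({v} : Set V) := LinearIndepOn.singleton hv
  have hw' : LinearIndepOn K id ({w} : Set W) := LinearIndepOn.singleton hw
  let bV := Module.Basis.extend hv'
  let bW := Module.Basis.extend hw'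
  let iv : hv'.extend (Set.subset_univ _) := ⟨v, hv'.subset_extend _ rfl⟩
  let iw : hw'.extend (Set.subset_univ _) := ⟨w, hw'.subset_extend _ rfl⟩
  have hbv : bV iv = v := Module.Basis.extend_apply_self hv' iv
  have hbw : bW iw = w := Module.Basis.extend_apply_self hw' iw
  have hr : Module.finrank K V = Module.finrank K W := by
    have h1 := hc
    rw [Module.natCard_eq_pow_finrank (K := K), Module.natCard_eq_pow_finrank (K := K) (V := W)] at h1
    exact Nat.pow_right_injective Finite.one_lt_card h1
  have hcard : Nat.card (hv'.extend (Set.subset_univ _)) = Nat.card (hw'.extend (Set.subset_univ _)) := by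
    rw [← Module.finrank_eq_nat_card_basis bV, ← Module.finrank_eq_nat_card_basis bW, hr]
  obtain ⟨e⟩ : Nonempty (hv'.extend (Set.subset_univ _) ≃ hw'.extend (Set.subset_univ _)) :=
    ⟨(Finite.equivFinOfCardEq hcard).trans (Finite.equivFin _).symm⟩
  refine ⟨bV.equiv bW (e.trans (Equiv.swap (e iv) iw)), ?_⟩
  refine (congrArg _ hbv.symm).trans ?_
  rw [Module.Basis.equiv_apply, Equiv.trans_apply, Equiv.swap_apply_left, hbw]

/-- Two actions of a generator correspond under some semilinear bijection. -/
theorem exists_conj_aux {K V W : Type*} [Field K] [AddCommGroup V] [AddCommGroup W]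
    [Module K V] [Module K W] [Finite K] [Finite V] [Finite W] (hc : Nat.card V = Nat.card W)
    {v : V} {w : W} (hv : v ≠ 0) (hw : w ≠ 0) (t : K) (S₁ : V → V) (S₂ : W → W)
    (h₁ : ∀ x, t • x = S₁ x) (h₂ : ∀ x, t • x = S₂ x) :
    ∃ σ : V ≃+ W, σ v = w ∧ ∀ x, σ (S₁ x) = S₂ (σ x) := by
  obtain ⟨e, he⟩ := exists_equiv_apply_eq (K := K) hc hv hw
  exact ⟨e.toAddEquiv, he, fun x => by rw [← h₁, ← h₂]; exact e.map_smul t x⟩

/-- The converse direction: transitivity of the maps conjugating `S₁` to `S₂`. -/
theorem exists_conj (hne : p ≠ q) (hord : orderOf (p : ZMod q) = q - 1) (S₁ S₂ : Module.End F V)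
    (h₁ : aeval S₁ (geom p q) = 0) (h₂ : aeval S₂ (geom p q) = 0) {v w : V} (hv : v ≠ 0)
    (hw : w ≠ 0) : ∃ σ : V ≃+ V, σ v = w ∧ ∀ x, σ (S₁ x) = S₂ (σ x) := by
  have := Fact.mk (irreducible_geom hne hord)
  have hK : Finite (AdjoinRoot (geom p q)) := by
    have : Module.Finite F (AdjoinRoot (geom p q)) :=
      (AdjoinRoot.powerBasis (geom_ne_zero hne)).finite
    exact Module.finite_of_finite F
  have hker : ∀ S : Module.End F V, aeval S (geom p q) = 0 →
      ∀ a ∈ Ideal.span ({geom p q} : Set F[X]), (aeval S).toRingHom a = 0 := by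
    intro S hS a ha
    obtain ⟨b, rfl⟩ := Ideal.mem_span_singleton'.mp ha
    simp [hS]
  let φ₁ : AdjoinRoot (geom p q) →+* Module.End F V := Ideal.Quotient.lift _ _ (hker S₁ h₁)
  let φ₂ : AdjoinRoot (geom p q) →+* Module.End F V := Ideal.Quotient.lift _ _ (hker S₂ h₂)
  have hs : ∀ S (hS : aeval S (geom p q) = 0),
      (Ideal.Quotient.lift _ _ (hker S hS)) (AdjoinRoot.root (geom p q)) = S := fun S hS => by
    show (aeval S) X = S
    simp
  exact @exists_conj_aux (AdjoinRoot (geom p q)) V V _ _ _
    (Module.compHom V φ₁) (Module.compHom V φ₂) hK _ _ rfl v w hv hw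
    (AdjoinRoot.root (geom p q)) S₁ S₂ (fun x => congrArg (fun f : Module.End F V => f x) (hs S₁ h₁))
    (fun x => congrArg (fun f : Module.End F V => f x) (hs S₂ h₂))

end CfsgLib.Subnormal.PrimitiveRoot
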