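/-
Pivots of a group stabilizing a series `A = V 0 > V 1 > ... > V a = 1` with factors of order `p`:
a subgroup needs at most `a ^ 2 / 4` generators modulo the centralizer of `A`.
-/
import Mathlib
import Cfsg.Agent.Lib.PGroups.Basic
import Cfsg.Agent.Lib.PGroups.Frattini
import Cfsg.Agent.Lib.Subnormal.OmegaCentral

set_option autoImplicit false
set_option linter.style.haveILetI false

open scoped commutatorElement

namespace CfsgLib.Subnormal

/-- **Mantel's bound** for a set of increasing pairs without a transitive triangle. -/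
theorem mantel (T : Finset (ℕ × ℕ)) :
    ∀ W : Finset ℕ, (∀ e ∈ T, e.1 < e.2 ∧ e.1 ∈ W ∧ e.2 ∈ W) →
      (∀ i j l, (i, j) ∈ T → (j, l) ∈ T → (i, l) ∉ T) → 4 * T.card ≤ W.card ^ 2 := by
  classical
  suffices main : ∀ n, ∀ (T : Finset (ℕ × ℕ)) (W : Finset ℕ), W.card = n →
      (∀ e ∈ T, e.1 < e.2 ∧ e.1 ∈ W ∧ e.2 ∈ W) →
      (∀ i j l, (i, j) ∈ T → (j, l) ∈ T → (i, l) ∉ T) → 4 * T.card ≤ W.card ^ 2 from
    fun W h1 h2 => main _ T W rfl h1 h2
  intro n
  induction n using Nat.strong_induction_on with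
  | _ n ih =>
  intro T W hn hT htri
  rcases T.eq_empty_or_nonempty with rfl | ⟨⟨i, j⟩, hij⟩
  · simp
  obtain ⟨hlt, hiW, hjW⟩ := hT _ hij
  simp only at hlt hiW hjW
  set W' := (W.erase i).erase j
  have hW' : W'.card + 2 = W.card := by
    have h1 : j ∈ W.erase i := Finset.mem_erase.mpr ⟨hlt.ne', hjW⟩
    have := Finset.card_erase_add_one h1
    have := Finset.card_erase_add_one hiW
    change ((W.erase i).erase j).card + 2 = W.card
    omega
  set T' := T.filter fun e => e.1 ∈ W' ∧ e.2 ∈ W'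
  have h4 := ih W'.card (by omega) T' W' rfl
    (fun e he => ⟨(hT e (Finset.mem_filter.mp he).1).1, (Finset.mem_filter.mp he).2⟩)
    (fun a b c h1 h2 h3 => htri a b c (Finset.mem_filter.mp h1).1 (Finset.mem_filter.mp h2).1
      (Finset.mem_filter.mp h3).1)
  -- the endpoint outside `{i, j}`
  set E := (T.filter fun e => ¬ (e.1 ∈ W' ∧ e.2 ∈ W')).erase (i, j)
  let g : ℕ × ℕ → ℕ := fun e => if e.1 = i ∨ e.1 = j then e.2 else e.1
  have hEW : ∀ e ∈ E, g e ∈ W' ∧
      (e = (i, g e) ∨ e = (j, g e) ∨ e = (g e, i) ∨ e = (g e, j)) := by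
    rintro ⟨a, b⟩ he
    obtain ⟨hne, he⟩ := Finset.mem_erase.mp he
    obtain ⟨heT, hout⟩ := Finset.mem_filter.mp he
    obtain ⟨hab, haW, hbW⟩ := hT _ heT
    simp only [W', Finset.mem_erase, not_and_or, not_not] at hout
    simp only [g]
    by_cases ha : a = i ∨ a = j
    · rw [if_pos ha]
      simp only [W', Finset.mem_erase]
      refine ⟨⟨?_, ?_, hbW⟩, ?_⟩
      · rintro rfl
        rcases ha with rfl | rfl
        · exact hne rfl
        · exact absurd hab (lt_irrefl _)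
      · rintro rfl
        rcases ha with rfl | rfl
        · exact absurd hab (lt_irrefl _)
        · exact absurd (lt_trans hlt hab) (lt_irrefl _)
      · rcases ha with rfl | rfl
        · exact Or.inl rfl
        · exact Or.inr (Or.inl rfl)
    · rw [if_neg ha]
      push Not at ha
      simp only [W', Finset.mem_erase]
      refine ⟨⟨ha.2, ha.1, haW⟩, Or.inr (Or.inr ?_)⟩
      simp only [haW, hbW, not_true_eq_false, or_false] at hout
      rcases hout with (h | h) | h | h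
      · exact absurd h ha.2
      · exact absurd h ha.1
      · exact Or.inr (by rw [h])
      · exact Or.inl (by rw [h])
  have hinj : Set.InjOn g (E : Set (ℕ × ℕ)) := by
    intro e he e' he' hg
    have hmemT : ∀ e ∈ E, e ∈ T := fun e he => (Finset.mem_filter.mp (Finset.mem_erase.mp he).2).1
    have hT1 := hmemT e he
    have hT2 := hmemT e' he'
    obtain ⟨-, h1⟩ := hEW e he
    obtain ⟨-, h2⟩ := hEW e' he'
    rw [← hg] at h2
    generalize g e = w at h1 h2
    rcases h1 with rfl | rfl | rfl | rfl <;> rcases h2 with rfl | rfl | rfl | rfl <;>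
      first
        | rfl
        | exact absurd ((hT _ hT1).1.trans (hT _ hT2).1) (lt_irrefl _)
        | exact (htri _ _ _ hij hT1 hT2).elim
        | exact (htri _ _ _ hij hT2 hT1).elim
        | exact (htri _ _ _ hT1 hij hT2).elim
        | exact (htri _ _ _ hT2 hij hT1).elim
        | exact (htri _ _ _ hT1 hT2 hij).elim
        | exact (htri _ _ _ hT2 hT1 hij).elim
        | (have h1' := (hT _ hT1).1; have h2' := (hT _ hT2).1; simp only at h1' h2'; omega)
  have hEc : E.card ≤ W'.card :=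
    Finset.card_le_card_of_injOn g (fun e he => (hEW e he).1) hinj
  have hsplit : T'.card + (T.filter fun e => ¬ (e.1 ∈ W' ∧ e.2 ∈ W')).card = T.card :=
    Finset.card_filter_add_card_filter_not _
  have hij' : (i, j) ∈ T.filter fun e => ¬ (e.1 ∈ W' ∧ e.2 ∈ W') :=
    Finset.mem_filter.mpr ⟨hij, by simp [W']⟩
  have := Finset.card_erase_add_one hij'
  have e1 : E.card + 1 = (T.filter fun e => ¬ (e.1 ∈ W' ∧ e.2 ∈ W')).card := this
  nlinarith

variable {P : Type*} [Group P]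

/-- The data of the series. -/
structure PivotSeries (a : ℕ) (P : Type*) [Group P] where
  V : ℕ → Subgroup P
  anti : ∀ r, V (r + 1) ≤ V r
  bot : ∀ r, a ≤ r → V r = ⊥
  step : ∀ r, ∀ v ∈ V r, ∀ x : P, ⁅x, v⁆ ∈ V (r + 1)
  comm : ∀ v ∈ V 0, ∀ w ∈ V 0, v * w = w * v
  gen : ∀ r, r < a → ∀ u ∈ V r, u ∉ V (r + 1) → ∀ w ∈ V r, ∃ n : ℕ, w * (u ^ n)⁻¹ ∈ V (r + 1)

namespace PivotSeries

variable {a : ℕ} (F : PivotSeries a P)

theorem mono {r s : ℕ} (h : r ≤ s) : F.V s ≤ F.V r := by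
  induction h with
  | refl => exact le_rfl
  | step _ ih => exact (F.anti _).trans ih

theorem mem_zero {r : ℕ} {v : P} (h : v ∈ F.V r) : v ∈ F.V 0 := F.mono (Nat.zero_le r) h

theorem comm' {r s : ℕ} {v w : P} (hv : v ∈ F.V r) (hw : w ∈ F.V s) : v * w = w * v :=
  F.comm v (F.mem_zero hv) w (F.mem_zero hw)

/-- Lowering by at least `d`. -/
def Level (d : ℕ) (x : P) : Prop := ∀ r, ∀ v ∈ F.V r, ⁅x, v⁆ ∈ F.V (r + d)

/-- Level `d` and trivial at that level below position `i`. -/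
def Below (i d : ℕ) (x : P) : Prop :=
  F.Level d x ∧ ∀ r, r < i → ∀ v ∈ F.V r, ⁅x, v⁆ ∈ F.V (r + d + 1)

/-- Pivot exactly `(i, d)`. -/
def Exact (i d : ℕ) (x : P) : Prop :=
  i < a ∧ F.Below i d x ∧ ∃ v ∈ F.V i, ⁅x, v⁆ ∉ F.V (i + d + 1)

theorem level_one (x : P) : F.Level 1 x := fun r v hv => F.step r v hv x

theorem comm_mul_right {x v w : P} {r s : ℕ} (hv : v ∈ F.V r) (hw : w ∈ F.V s) :
    ⁅x, v * w⁆ = ⁅x, v⁆ * ⁅x, w⁆ := by
  have h2 : v * ⁅x, w⁆ = ⁅x, w⁆ * v := F.comm' hv (F.step s w hw x)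
  calc ⁅x, v * w⁆ = ⁅x, v⁆ * (v * ⁅x, w⁆ * v⁻¹) := by simp [commutatorElement_def, mul_assoc]
    _ = _ := by rw [h2]; group

theorem comm_mul_left {x y v : P} : ⁅x * y, v⁆ = ⁅x, ⁅y, v⁆⁆ * ⁅y, v⁆ * ⁅x, v⁆ := by
  simp [commutatorElement_def, mul_assoc]

theorem level_mul {d : ℕ} {x y : P} (hx : F.Level d x) (hy : F.Level d y) : F.Level d (x * y) := by
  intro r v hv
  rw [comm_mul_left]
  exact mul_mem (mul_mem (F.mono (by omega) (hx _ _ (hy r v hv))) (hy r v hv)) (hx r v hv)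

theorem below_mul {i d : ℕ} (hd : 1 ≤ d) {x y : P} (hx : F.Below i d x) (hy : F.Below i d y) :
    F.Below i d (x * y) := by
  refine ⟨F.level_mul hx.1 hy.1, fun r hr v hv => ?_⟩
  rw [comm_mul_left]
  exact mul_mem (mul_mem (F.mono (by omega) (hx.1 _ _ (hy.1 r v hv))) (hy.2 r hr v hv))
    (hx.2 r hr v hv)

theorem below_one (i d : ℕ) : F.Below i d (1 : P) :=
  ⟨fun r v _ => by rw [commutatorElement_one_left]; exact one_mem _,
    fun r _ v _ => by rw [commutatorElement_one_left]; exact one_mem _⟩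

theorem below_pow {i d : ℕ} (hd : 1 ≤ d) {x : P} (hx : F.Below i d x) (n : ℕ) :
    F.Below i d (x ^ n) := by
  induction n with
  | zero => rw [pow_zero]; exact F.below_one i d
  | succ n ih => rw [pow_succ]; exact F.below_mul hd ih hx

theorem below_inv [Finite P] {i d : ℕ} (hd : 1 ≤ d) {x : P} (hx : F.Below i d x) :
    F.Below i d x⁻¹ := by
  rw [show x⁻¹ = x ^ (orderOf x - 1) from inv_eq_of_mul_eq_one_right (by
    rw [← pow_succ', Nat.sub_add_cancel (orderOf_pos x), pow_orderOf_eq_one])]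
  exact F.below_pow hd hx _

/-- If `y` lowers one element of `V r \ V (r + 1)` by more than `e`, then all of `V r`. -/
theorem deep_of_deep {r e : ℕ} {y z : P} (hy : F.Level e y) (hr : r < a) (hz : z ∈ F.V r)
    (hzn : z ∉ F.V (r + 1)) (h : ⁅y, z⁆ ∈ F.V (r + e + 1)) :
    ∀ w ∈ F.V r, ⁅y, w⁆ ∈ F.V (r + e + 1) := by
  intro w hw
  obtain ⟨n, hn⟩ := F.gen r hr z hz hzn w hw
  have hp : ∀ n : ℕ, ⁅y, z ^ n⁆ ∈ F.V (r + e + 1) := by
    intro n
    induction n with
    | zero => rw [pow_zero, commutatorElement_one_right]; exact one_mem _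
    | succ n ih => rw [pow_succ, F.comm_mul_right (pow_mem hz n) hz]; exact mul_mem ih h
  have hsplit := F.comm_mul_right (x := y) hn (pow_mem hz n)
  rw [inv_mul_cancel_right] at hsplit
  rw [hsplit]
  exact mul_mem (F.mono (by omega) (hy _ _ hn)) (hp n)

theorem commutator_formula {x y v : P} {r : ℕ} (hv : v ∈ F.V r) :
    ⁅⁅y, x⁆, v⁆ = ⁅y, ⁅x, v⁆⁆ * ⁅x, ⁅y, v⁆⁆⁻¹ * ⁅⁅y, x⁆, ⁅x * y, v⁆⁆⁻¹ := by
  have hyx : y * x = ⁅y, x⁆ * (x * y) := by simp [commutatorElement_def, mul_assoc]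
  have e1 : ⁅y * x, v⁆ = ⁅⁅y, x⁆, ⁅x * y, v⁆⁆ * ⁅x * y, v⁆ * ⁅⁅y, x⁆, v⁆ := by
    conv_lhs => rw [hyx, comm_mul_left]
  rw [comm_mul_left (x := y) (y := x)] at e1
  have hexp : ⁅x * y, v⁆ = ⁅x, ⁅y, v⁆⁆ * ⁅y, v⁆ * ⁅x, v⁆ := comm_mul_left
  have e2 : ⁅⁅y, x⁆, v⁆ = ⁅x * y, v⁆⁻¹ * ⁅⁅y, x⁆, ⁅x * y, v⁆⁆⁻¹ *
      (⁅y, ⁅x, v⁆⁆ * ⁅x, v⁆ * ⁅y, v⁆) := by
    rw [e1]; group
  rw [e2]
  generalize hq : ⁅⁅y, x⁆, ⁅x * y, v⁆⁆ = q
  rw [hexp]
  have h0 : ∀ (z : P) (s : ℕ) (u : P), u ∈ F.V s → ⁅z, u⁆ ∈ F.V 0 := fun z s u hu =>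
    F.mem_zero (F.step s u hu z)
  have hA : IsMulCommutative (F.V 0) := ⟨⟨fun u w => Subtype.ext (F.comm u u.2 w w.2)⟩⟩
  let a1 : F.V 0 := ⟨⁅y, v⁆, h0 y r v hv⟩
  let a2 : F.V 0 := ⟨⁅x, v⁆, h0 x r v hv⟩
  let a3 : F.V 0 := ⟨⁅x, ⁅y, v⁆⁆, h0 x _ _ (F.step r v hv y)⟩
  let a4 : F.V 0 := ⟨⁅y, ⁅x, v⁆⁆, h0 y _ _ (F.step r v hv x)⟩
  let a5 : F.V 0 := ⟨q, hq ▸ h0 _ _ _ (F.step r v hv (x * y))⟩
  have : (a3 * a1 * a2)⁻¹ * a5⁻¹ * (a4 * a2 * a1) = a4 * a3⁻¹ * a5⁻¹ := by
    open scoped IsMulCommutative in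
    simp [mul_comm, mul_left_comm, mul_assoc]
  exact congrArg Subtype.val this

/-- The commutator of levels `d` and `e` has level `d + e`. -/
theorem level_commutator {d e : ℕ} {x y : P} (hx : F.Level d x) (hy : F.Level e y) :
    F.Level (d + e) ⁅y, x⁆ := by
  suffices main : ∀ k r, a ≤ r + k → ∀ v ∈ F.V r, ⁅⁅y, x⁆, v⁆ ∈ F.V (r + (d + e)) from
    fun r v hv => main a r (by omega) v hv
  intro k
  induction k with
  | zero =>
    intro r hr v hv
    rw [F.bot r (by omega), Subgroup.mem_bot] at hv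
    rw [hv, commutatorElement_one_right]
    exact one_mem _
  | succ k ih =>
    intro r hr v hv
    have h1 : ⁅y, ⁅x, v⁆⁆ ∈ F.V (r + (d + e)) := F.mono (by omega) (hy _ _ (hx r v hv))
    have h2 : ⁅x, ⁅y, v⁆⁆ ∈ F.V (r + (d + e)) := F.mono (by omega) (hx _ _ (hy r v hv))
    have h3 : ⁅⁅y, x⁆, ⁅x * y, v⁆⁆ ∈ F.V (r + (d + e)) :=
      F.mono (by omega) (ih (r + 1) (by omega) _ (F.step r v hv (x * y)))
    rw [F.commutator_formula hv]
    exact mul_mem (mul_mem h1 (inv_mem h2)) (inv_mem h3)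

/-- Pivots compose. -/
theorem exact_commutator {i d e : ℕ} (hd : 1 ≤ d) {x y : P} (hx : F.Exact i d x)
    (hy : F.Exact (i + d) e y) : F.Exact i (d + e) ⁅y, x⁆ := by
  have hl := F.level_commutator hx.2.1.1 hy.2.1.1
  refine ⟨hx.1, ⟨hl, fun r hr v hv => ?_⟩, ?_⟩
  · rw [F.commutator_formula hv]
    refine mul_mem (mul_mem ?_ (inv_mem ?_)) (inv_mem ?_)
    · exact F.mono (by omega) (hy.2.1.1 _ _ (hx.2.1.2 r hr v hv))
    · exact F.mono (by omega) (hx.2.1.1 _ _ (hy.2.1.2 r (by omega) v hv))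
    · exact F.mono (by omega) (hl _ _ (F.step r v hv (x * y)))
  obtain ⟨v, hv, hvn⟩ := hx.2.2
  refine ⟨v, hv, fun hm => ?_⟩
  rw [F.commutator_formula hv] at hm
  have h2 : ⁅x, ⁅y, v⁆⁆ ∈ F.V (i + (d + e) + 1) :=
    F.mono (by omega) (hx.2.1.1 _ _ (hy.2.1.2 i (by omega) v hv))
  have h3 : ⁅⁅y, x⁆, ⁅x * y, v⁆⁆ ∈ F.V (i + (d + e) + 1) :=
    F.mono (by omega) (hl _ _ (F.step i v hv (x * y)))
  have h1 : ⁅y, ⁅x, v⁆⁆ ∈ F.V (i + d + e + 1) := by
    have := mul_mem (mul_mem hm h3) h2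
    rw [inv_mul_cancel_right, inv_mul_cancel_right] at this
    rwa [Nat.add_assoc i d e]
  obtain ⟨w, hw, hwn⟩ := hy.2.2
  exact hwn (F.deep_of_deep hy.2.1.1 hy.1 (hx.2.1.1 i v hv) hvn h1 w hw)

/-- Two elements with the same pivot differ by a power and an element with a later pivot. -/
theorem exists_pow_below_succ [Finite P] {i d : ℕ} (hd : 1 ≤ d) {x w : P} (hx : F.Exact i d x)
    (hw : F.Exact i d w) : ∃ n : ℕ, F.Below (i + 1) d ((w ^ n)⁻¹ * x) := by
  obtain ⟨v, hv, hvn⟩ := hx.2.2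
  have hv1 : v ∉ F.V (i + 1) := fun h => hvn (F.mono (by omega) (hx.2.1.1 _ _ h))
  have hu : ⁅w, v⁆ ∉ F.V (i + d + 1) := fun h => by
    obtain ⟨v', hv', hvn'⟩ := hw.2.2
    exact hvn' (F.deep_of_deep hw.2.1.1 hw.1 hv hv1 h v' hv')
  have hid : i + d < a := by
    by_contra hcon
    exact hvn (F.mono (show i + d + 1 ≤ i + d + 1 from le_rfl) (by
      have h0 := hx.2.1.1 i v hv
      rw [F.bot _ (by omega), Subgroup.mem_bot] at h0
      rw [h0]; exact one_mem _))
  set u := ⁅w, v⁆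
  obtain ⟨n, hn⟩ := F.gen (i + d) hid u (hw.2.1.1 i v hv) hu _ (hx.2.1.1 i v hv)
  refine ⟨n, ?_⟩
  set x' := (w ^ n)⁻¹ * x with hx'
  have hbelow : F.Below i d x' :=
    F.below_mul hd (F.below_inv hd (F.below_pow hd hw.2.1 n)) hx.2.1
  refine ⟨hbelow.1, fun r hr => ?_⟩
  rcases Nat.lt_succ_iff_lt_or_eq.mp hr with hr | rfl
  · exact hbelow.2 r hr
  refine F.deep_of_deep hbelow.1 hx.1 hv hv1 ?_
  -- `z ↦ ⁅z, v⁆` is multiplicative modulo `V (r + d + 1)` on level `d`
  have hhom : ∀ {z z' : P}, F.Level d z → F.Level d z' →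
      ∃ c ∈ F.V (r + d + 1), ⁅z * z', v⁆ = c * (⁅z, v⁆ * ⁅z', v⁆) := by
    intro z z' hz hz'
    refine ⟨⁅z, ⁅z', v⁆⁆, F.mono (by omega) (hz _ _ (hz' r v hv)), ?_⟩
    rw [comm_mul_left, F.comm' (hz r v hv) (hz' r v hv), mul_assoc]
  have hwp : ∀ m : ℕ, ∃ c ∈ F.V (r + d + 1), ⁅w ^ m, v⁆ = c * u ^ m := by
    intro m
    induction m with
    | zero => exact ⟨1, one_mem _, by simp⟩
    | succ m ih =>
      obtain ⟨c, hc, hcm⟩ := ih
      obtain ⟨c', hc', h⟩ := hhom (F.below_pow hd hw.2.1 m).1 hw.2.1.1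
      exact ⟨c' * c, mul_mem hc' hc, by rw [pow_succ, h, hcm, pow_succ]; simp only [u, mul_assoc]⟩
  obtain ⟨c, hc, hcn⟩ := hwp n
  obtain ⟨c', hc', h⟩ := hhom (F.below_pow hd hw.2.1 n).1 hbelow.1
  rw [show w ^ n * x' = x by rw [hx', mul_inv_cancel_left], hcn] at h
  have hux : u ^ n * ⁅x', v⁆ = ⁅x', v⁆ * u ^ n :=
    F.comm' (pow_mem (hw.2.1.1 r v hv) n) (hbelow.1 r v hv)
  have : ⁅x, v⁆ * (u ^ n)⁻¹ = c' * c * ⁅x', v⁆ := by
    rw [h, mul_assoc c, hux]; group
  rw [this] at hn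
  exact (Subgroup.mul_mem_cancel_left _ (mul_mem hc' hc)).mp hn

end PivotSeries

variable [Finite P] {p : ℕ} [hp : Fact p.Prime]

theorem exists_pivotSeries (hP : IsPGroup p P) {A : Subgroup P} [hAn : A.Normal]
    (hA : IsMulCommutative A) {a : ℕ} (hc : Nat.card A = p ^ a) :
    ∃ F : PivotSeries a P, F.V 0 = A := by
  classical
  have hnext : ∀ N : {N : Subgroup P // N.Normal}, ∃ M : {N : Subgroup P // N.Normal},
      M.1 ≤ N.1 ∧ ⁅N.1, (⊤ : Subgroup P)⁆ ≤ M.1 ∧
      ∀ k, Nat.card N.1 = p ^ k → Nat.card M.1 = p ^ (k - 1) := by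
    rintro ⟨N, hN⟩
    obtain ⟨m, hm⟩ := IsPGroup.iff_card.mp (hP.to_subgroup N)
    have hle : ⁅N, (⊤ : Subgroup P)⁆ ≤ N := Subgroup.commutator_le_left _ _
    obtain ⟨l, hl⟩ := IsPGroup.iff_card.mp (hP.to_subgroup ⁅N, (⊤ : Subgroup P)⁆)
    have hlm : l ≤ m - 1 := by
      by_cases hNb : N = ⊥
      · have : ⁅N, (⊤ : Subgroup P)⁆ = ⊥ := le_bot_iff.mp (hle.trans hNb.le)
        rw [this, Subgroup.card_bot] at hl
        rcases (Nat.pow_eq_one.mp hl.symm) with h | h
        · exact absurd h hp.out.ne_one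
        · omega
      · have : Group.IsNilpotent P := hP.isNilpotent
        have hlt := PGroups.commutator_top_lt hNb
        have : p ^ l < p ^ m := by
          rw [← hl, ← hm]
          exact lt_of_le_of_ne (Subgroup.card_le_of_le hle)
            fun he => hlt.ne (Subgroup.eq_of_le_of_card_ge hle he.ge)
        have := (Nat.pow_lt_pow_iff_right hp.out.one_lt).mp this
        omega
    obtain ⟨M, hMn, hM1, hM2, hMc⟩ :=
      PGroups.exists_normal_card_between hP hle hl hm hlm (Nat.sub_le m 1)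
    refine ⟨⟨M, hMn⟩, hM2, hM1, fun k hk => ?_⟩
    rw [show k = m from Nat.pow_right_injective hp.out.two_le (hk.symm.trans hm)]
    exact hMc
  choose next hnle hncomm hncard using hnext
  let V : ℕ → {N : Subgroup P // N.Normal} := fun r => next^[r] ⟨A, hAn⟩
  have hV : ∀ r, V (r + 1) = next (V r) := fun r => Function.iterate_succ_apply' next r _
  have hcard : ∀ r, Nat.card (V r).1 = p ^ (a - r) := by
    intro r
    induction r with
    | zero => exact hc
    | succ r ih => rw [hV, hncard _ _ ih, Nat.sub_sub]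
  have hanti : ∀ r, (V (r + 1)).1 ≤ (V r).1 := fun r => (hV r).symm ▸ hnle (V r)
  have hle0 : ∀ r, (V r).1 ≤ A := by
    intro r
    induction r with
    | zero => exact le_rfl
    | succ r ih => exact (hanti r).trans ih
  refine ⟨{ V := fun r => (V r).1
            anti := hanti
            bot := fun r hr => Subgroup.eq_bot_of_card_eq _ (by
              rw [hcard, show a - r = 0 by omega, pow_zero])
            step := fun r v hv x => by
              rw [hV, ← commutatorElement_inv]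
              exact inv_mem (hncomm (V r) (Subgroup.commutator_mem_commutator hv trivial))
            comm := fun v hv w hw => congrArg Subtype.val (hA.is_comm.comm ⟨v, hv⟩ ⟨w, hw⟩)
            gen := ?_ }, rfl⟩
  intro r hr u hu hun w hw
  have hn := (V (r + 1)).2
  have hlt : (V (r + 1)).1 < (V (r + 1)).1 ⊔ Subgroup.zpowers u := lt_of_le_of_ne le_sup_left
    fun h => hun (h ▸ Subgroup.mem_sup_right (Subgroup.mem_zpowers u))
  have hsup : (V (r + 1)).1 ⊔ Subgroup.zpowers u = (V r).1 := by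
    have hle : (V (r + 1)).1 ⊔ Subgroup.zpowers u ≤ (V r).1 :=
      sup_le (hanti r) (Subgroup.zpowers_le.mpr hu)
    obtain ⟨k, hk⟩ := IsPGroup.iff_card.mp
      (hP.to_subgroup ((V (r + 1)).1 ⊔ Subgroup.zpowers u))
    refine Subgroup.eq_of_le_of_card_ge hle ?_
    rw [hk, hcard]
    refine Nat.pow_le_pow_right hp.out.pos ?_
    have : p ^ (a - (r + 1)) < p ^ k := by
      rw [← hcard, ← hk]
      exact lt_of_le_of_ne (Subgroup.card_le_of_le hlt.le)
        fun he => hlt.ne (Subgroup.eq_of_le_of_card_ge hlt.le he.ge)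
    have := (Nat.pow_lt_pow_iff_right hp.out.one_lt).mp this
    omega
  rw [← hsup, Subgroup.mem_sup_of_normal_left] at hw
  obtain ⟨y, hy, z, hz, rfl⟩ := hw
  obtain ⟨n, rfl⟩ := ((isOfFinOrder_of_finite u).mem_powers_iff_mem_zpowers.mpr hz :
    z ∈ Submonoid.powers u)
  exact ⟨n, by simpa using hy⟩

/-- **Generators modulo the centralizer of a normal abelian subgroup.** In a finite `p`-group with
`|A| = p ^ a`, a subgroup `H` is generated by `H ∩ C(A)` and at most `a ^ 2 / 4` further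
elements. -/
theorem exists_generators_mod_centralizer (hP : IsPGroup p P) {A : Subgroup P} [A.Normal]
    (hA : IsMulCommutative A) {a : ℕ} (hc : Nat.card A = p ^ a) (H : Subgroup P) :
    ∃ X : Finset P, (X : Set P) ⊆ H ∧ 4 * X.card ≤ a ^ 2 ∧
      H ≤ Subgroup.closure (X : Set P) ⊔ (H ⊓ Subgroup.centralizer (A : Set P)) := by
  classical
  obtain ⟨F, hF⟩ := exists_pivotSeries hP hA hc
  let T : Finset (ℕ × ℕ) := (Finset.range a ×ˢ Finset.range a).filter fun e =>
    e.1 < e.2 ∧ (∃ x ∈ H, F.Exact e.1 (e.2 - e.1) x) ∧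
      ¬ ∃ x ∈ ⁅H, H⁆, F.Exact e.1 (e.2 - e.1) x
  have hTmem : ∀ e ∈ T, e.1 < e.2 ∧ e.1 ∈ Finset.range a ∧ e.2 ∈ Finset.range a := fun e he =>
    ⟨(Finset.mem_filter.mp he).2.1, Finset.mem_product.mp (Finset.mem_filter.mp he).1⟩
  have hT : 4 * T.card ≤ a ^ 2 := by
    refine (mantel T (Finset.range a) hTmem fun i j l h1 h2 h3 => ?_).trans_eq
      (by rw [Finset.card_range])
    obtain ⟨hij, ⟨x, hx, hxe⟩, -⟩ := (Finset.mem_filter.mp h1).2
    obtain ⟨hjl, ⟨y, hy, hye⟩, -⟩ := (Finset.mem_filter.mp h2).2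
    obtain ⟨-, -, hno⟩ := (Finset.mem_filter.mp h3).2
    simp only at hij hjl hxe hye hno
    refine hno ⟨⁅y, x⁆, Subgroup.commutator_mem_commutator hy hx, ?_⟩
    have := F.exact_commutator (by omega) hxe
      (show F.Exact (i + (j - i)) (l - j) y by rwa [Nat.add_sub_cancel' hij.le])
    rwa [show l - i = j - i + (l - j) by omega]
  have hwit : ∀ e : T, ∃ x ∈ H, F.Exact e.1.1 (e.1.2 - e.1.1) x := fun e =>
    (Finset.mem_filter.mp e.2).2.2.1
  choose g hgH hgE using hwit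
  refine ⟨T.attach.image g, fun z hz => ?_, ?_, ?_⟩
  · obtain ⟨e, -, rfl⟩ := Finset.mem_image.mp hz
    exact hgH e
  · exact le_trans (Nat.mul_le_mul_left 4
      (Finset.card_image_le.trans_eq Finset.card_attach)) hT
  set C := H ⊓ Subgroup.centralizer (A : Set P)
  set L := Subgroup.closure ((T.attach.image g : Finset P) : Set P) ⊔ C with hL
  have hLH : L ≤ H := sup_le ((Subgroup.closure_le H).mpr fun z hz => by
    obtain ⟨e, -, rfl⟩ := Finset.mem_image.mp hz
    exact hgH e) inf_le_left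
  -- `L ⊔ ⁅H, H⁆` is all of `H`
  set W := L ⊔ ⁅H, H⁆ with hW
  have hcomm : ⁅H, H⁆ ≤ H := Subgroup.commutator_le_self H
  have main : ∀ k d, 1 ≤ d → a ≤ d + k → ∀ x ∈ H, F.Below 0 d x → x ∈ W := by
    intro k
    induction k with
    | zero =>
      intro d _ hk x hxH hx
      refine Subgroup.mem_sup_left (Subgroup.mem_sup_right ⟨hxH, ?_⟩)
      refine Subgroup.mem_centralizer_iff.mpr fun v hv => ?_
      have h0 := hx.1 0 v (hF.symm ▸ hv)
      rw [F.bot _ (by omega), Subgroup.mem_bot, commutatorElement_eq_one_iff_mul_comm] at h0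
      exact h0.symm
    | succ k ih =>
      intro d hd hk
      suffices inner : ∀ m i, a ≤ i + m → ∀ x ∈ H, F.Below i d x → x ∈ W from
        inner a 0 (by omega)
      intro m
      induction m with
      | zero =>
        intro i hi x hxH hx
        refine ih (d + 1) (by omega) (by omega) x hxH ⟨fun r v hv => ?_, fun r hr => absurd hr (Nat.not_lt_zero r)⟩
        by_cases hr : r < i
        · rw [← Nat.add_assoc]; exact hx.2 r hr v hv
        · rw [F.bot r (by omega), Subgroup.mem_bot] at hv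
          rw [hv, commutatorElement_one_right]
          exact one_mem _
      | succ m ihm =>
        intro i hi x hxH hx
        by_cases hdeep : ∀ v ∈ F.V i, ⁅x, v⁆ ∈ F.V (i + d + 1)
        · refine ihm (i + 1) (by omega) x hxH ⟨hx.1, fun r hr => ?_⟩
          rcases Nat.lt_succ_iff_lt_or_eq.mp hr with hr | rfl
          · exact hx.2 r hr
          · exact hdeep
        push Not at hdeep
        have hia : i < a := by
          by_contra hcon
          obtain ⟨v, hv, hvn⟩ := hdeep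
          rw [F.bot i (by omega), Subgroup.mem_bot] at hv
          exact hvn (by rw [hv, commutatorElement_one_right]; exact one_mem _)
        have hxE : F.Exact i d x := ⟨hia, hx, hdeep⟩
        obtain ⟨w, hwW, hwH, hwE⟩ : ∃ w ∈ W, w ∈ H ∧ F.Exact i d w := by
          by_cases hc' : ∃ z ∈ ⁅H, H⁆, F.Exact i d z
          · obtain ⟨z, hz, hzE⟩ := hc'
            exact ⟨z, Subgroup.mem_sup_right hz, hcomm hz, hzE⟩
          have hid : i + d < a := by
            by_contra hcon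
            obtain ⟨v, hv, hvn⟩ := hdeep
            have h0 := hx.1 i v hv
            rw [F.bot _ (by omega), Subgroup.mem_bot] at h0
            exact hvn (by rw [h0]; exact one_mem _)
          have heT : (i, i + d) ∈ T := Finset.mem_filter.mpr
            ⟨Finset.mem_product.mpr ⟨Finset.mem_range.mpr hia, Finset.mem_range.mpr hid⟩,
              by simp only; omega, ⟨x, hxH, by simpa using hxE⟩, by simpa using hc'⟩
          refine ⟨g ⟨_, heT⟩, Subgroup.mem_sup_left (Subgroup.mem_sup_left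
            (Subgroup.subset_closure ?_)), hgH _, by simpa using hgE ⟨_, heT⟩⟩
          exact Finset.mem_image.mpr ⟨⟨_, heT⟩, Finset.mem_attach _ _, rfl⟩
        obtain ⟨n, hn⟩ := F.exists_pow_below_succ hd hxE hwE
        have := ihm (i + 1) (by omega) _ (mul_mem (inv_mem (pow_mem hwH n)) hxH) hn
        simpa using mul_mem (pow_mem hwW n) this
  have hHW : H ≤ W := fun x hx =>
    main a 1 le_rfl (by omega) x hx ⟨F.level_one x, fun r hr => absurd hr (Nat.not_lt_zero r)⟩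
  -- the derived group is redundant
  have htop : L.subgroupOf H ⊔ commutator H = ⊤ := by
    apply Subgroup.map_injective H.subtype_injective
    rw [Subgroup.map_sup, Subgroup.subgroupOf_map_subtype, inf_eq_left.mpr hLH,
      ← MonoidHom.range_eq_map, Subgroup.range_subtype, Subgroup.map_subtype_commutator]
    exact le_antisymm (sup_le hLH hcomm) hHW
  have := eq_top_of_sup_commutator_eq_top (hP.to_subgroup H) htop
  exact (Subgroup.subgroupOf_eq_top.mp this)

end CfsgLib.Subnormal
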